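import Cfsg.Agent.S4491
import Cfsg.Agent.S4494
import Cfsg.Agent.Lib.Helper4.Contrib3

/-!
# Brandt's theorem, character side (helper1)

For a block with exactly two irreducible characters the two degrees are `g x₁`, `g x₂` with
`x₁² + x₂²` a power of `p`.
-/

set_option autoImplicit false

namespace Cfsg.Agent.Lib.Helper1

open Cfsg

/-- the integer core: the contribution equations force `x₁² + x₂² = p^m` -/
theorem brandt_int (v1 v2 : ℕ) (hv1 : 0 < v1) (_hv2 : 0 < v2) (p a : ℕ) (hp : p.Prime)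
    (c11 c12 : ℤ)
    (h1 : c11 * (v1 : ℤ) + c12 * (v2 : ℤ) = ((p ^ a : ℕ) : ℤ) * (v1 : ℤ))
    (h3 : c11 ^ 2 + c12 ^ 2 = ((p ^ a : ℕ) : ℤ) * c11)
    (hne : c11 ≠ ((p ^ a : ℕ) : ℤ)) :
    ∃ g x1 x2 m : ℕ, v1 = g * x1 ∧ v2 = g * x2 ∧ x1 ^ 2 + x2 ^ 2 = p ^ m ∧ 0 < g ∧
      Nat.Coprime x1 x2 := by
  obtain ⟨P, hP⟩ : ∃ P : ℤ, P = ((p ^ a : ℕ) : ℤ) := ⟨_, rfl⟩
  rw [← hP] at h1 h3 hne
  have e1 : c12 * (v2 : ℤ) = (P - c11) * (v1 : ℤ) := by linarith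
  have e2 : (P - c11) * ((P - c11) * (v1 : ℤ) ^ 2 - c11 * (v2 : ℤ) ^ 2) = 0 := by
    linear_combination ((v2 : ℤ) ^ 2) * h3 - (c12 * (v2 : ℤ) + (P - c11) * (v1 : ℤ)) * e1
  have hPc : P - c11 ≠ 0 := fun h => hne (by linarith)
  have e3 : (P - c11) * (v1 : ℤ) ^ 2 - c11 * (v2 : ℤ) ^ 2 = 0 := by
    rcases mul_eq_zero.mp e2 with h | h
    · exact absurd h hPc
    · exact h
  have e4 : c11 * ((v1 : ℤ) ^ 2 + (v2 : ℤ) ^ 2) = P * (v1 : ℤ) ^ 2 := by linarith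
  have hg : 0 < Nat.gcd v1 v2 := Nat.gcd_pos_of_pos_left _ hv1
  obtain ⟨x1, x2, hcop, hx1, hx2⟩ := Nat.exists_coprime v1 v2
  have e5 : c11 * ((x1 : ℤ) ^ 2 + (x2 : ℤ) ^ 2) = P * (x1 : ℤ) ^ 2 := by
    have hg2 : ((Nat.gcd v1 v2 : ℤ)) ^ 2 ≠ 0 := by
      have : (0 : ℤ) < (Nat.gcd v1 v2 : ℤ) := by exact_mod_cast hg
      positivity
    apply mul_left_cancel₀ hg2
    have h5 : ((v1 : ℤ)) = (x1 : ℤ) * (Nat.gcd v1 v2 : ℤ) := by exact_mod_cast hx1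
    have h6 : ((v2 : ℤ)) = (x2 : ℤ) * (Nat.gcd v1 v2 : ℤ) := by exact_mod_cast hx2
    rw [h5, h6] at e4
    linear_combination e4
  have hdvd : (x1 ^ 2 + x2 ^ 2) ∣ p ^ a * x1 ^ 2 := by
    have h7 : ((x1 ^ 2 + x2 ^ 2 : ℕ) : ℤ) ∣ ((p ^ a * x1 ^ 2 : ℕ) : ℤ) := by
      refine ⟨c11, ?_⟩
      push_cast
      rw [hP] at e5
      push_cast at e5
      linear_combination -e5
    exact Int.natCast_dvd_natCast.mp h7
  have hcop2 : Nat.Coprime (x1 ^ 2 + x2 ^ 2) (x1 ^ 2) := by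
    have h8 : Nat.Coprime (x2 ^ 2) (x1 ^ 2) := (hcop.symm).pow 2 2
    rw [Nat.Coprime, add_comm, Nat.gcd_add_self_left] 
    exact h8
  have hdvd2 : (x1 ^ 2 + x2 ^ 2) ∣ p ^ a := hcop2.dvd_of_dvd_mul_right hdvd
  obtain ⟨m, -, hm⟩ := (Nat.dvd_prime_pow hp).mp hdvd2
  exact ⟨Nat.gcd v1 v2, x1, x2, m, by rw [mul_comm]; exact hx1, by rw [mul_comm]; exact hx2,
    hm, hg, hcop⟩

open Cfsg.Agent.Lib.Helper4 in
/-- two-character block, the first character not of defect zero -/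
theorem brandt_char_aux {G : Type*} [Group G] [Finite G] (p : ℕ) [Fact p.Prime]
    (M : Ideal AlgInt) (hM : IsPModular p M) (B : Set (IrrCharacter G)) (hB : IsPBlock M B)
    (χ1 χ2 : IrrCharacter G) (hne : χ1 ≠ χ2) (hBeq : B = {χ1, χ2})
    (hnd : ¬ p ^ (Nat.card G).factorization p ∣ charDegree (χ1 : G → ℂ)) :
    ∃ g x1 x2 m : ℕ, charDegree (χ1 : G → ℂ) = g * x1 ∧ charDegree (χ2 : G → ℂ) = g * x2 ∧
      x1 ^ 2 + x2 ^ 2 = p ^ m ∧ 0 < g ∧ Nat.Coprime x1 x2 := by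
  classical
  let _ : Fintype G := Fintype.ofFinite G
  have := irr_finite (G := G)
  let _ : Fintype (IrrCharacter G) := Fintype.ofFinite _
  have hp : p.Prime := Fact.out
  have hzero : ∀ θ : IrrCharacter G, θ ≠ χ1 → θ ≠ χ2 → ctr p χ1 θ = 0 := by
    intro θ h1 h2
    apply ctr_eq_zero p M hM B hB χ1 (by rw [hBeq]; simp) θ
    rw [hBeq]; simp [h1, h2]
  have hsum : ∀ f : IrrCharacter G → ℤ, (∀ θ, θ ≠ χ1 → θ ≠ χ2 → f θ = 0) →
      ∑ θ, f θ = f χ1 + f χ2 := by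
    intro f hf
    rw [← Finset.sum_subset (Finset.subset_univ {χ1, χ2})]
    · rw [Finset.sum_pair hne]
    · intro θ _ hθ
      simp only [Finset.mem_insert, Finset.mem_singleton, not_or] at hθ
      exact hf θ hθ.1 hθ.2
  have h1 := ctr_deg_sum p χ1
  rw [hsum _ (fun θ h1 h2 => by rw [hzero θ h1 h2, zero_mul])] at h1
  have h3 := ctr_parseval p χ1
  rw [hsum _ (fun θ h1 h2 => by rw [hzero θ h1 h2]; ring)] at h3
  have hlt := ctr_self_lt p χ1 hnd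
  exact brandt_int _ _ (Helper83.irr_degree χ1.2).1 (Helper83.irr_degree χ2.2).1 p _ hp _ _
    h1 h3 hlt.ne

/-- a block with two characters: the degrees are `g x₁`, `g x₂` with `x₁² + x₂² = p^m`,
and the defect is positive -/
theorem brandt_char {G : Type*} [Group G] [Finite G] (p : ℕ) [Fact p.Prime]
    (M : Ideal AlgInt) (hM : IsPModular p M) (B : Set (IrrCharacter G)) (hB : IsPBlock M B)
    (hcard : Nat.card B = 2) :
    ∃ (χ1 χ2 : IrrCharacter G) (g x1 x2 m : ℕ), χ1 ≠ χ2 ∧ B = {χ1, χ2} ∧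
      charDegree (χ1 : G → ℂ) = g * x1 ∧ charDegree (χ2 : G → ℂ) = g * x2 ∧
      x1 ^ 2 + x2 ^ 2 = p ^ m ∧ 0 < g ∧ Nat.Coprime x1 x2 ∧ 0 < blockDefect p B := by
  have hp : p.Prime := Fact.out
  obtain ⟨a, b, hab, huniv⟩ := Nat.card_eq_two_iff.mp hcard
  have hne : a.1 ≠ b.1 := fun h => hab (Subtype.ext h)
  have hBeq : B = {a.1, b.1} := by
    ext θ
    constructor
    · intro hθ
      have h1 : (⟨θ, hθ⟩ : B) ∈ ({a, b} : Set B) := by rw [huniv]; trivial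
      rcases h1 with h1 | h1
      · left; exact congrArg Subtype.val h1
      · right; exact congrArg Subtype.val h1
    · rintro (h | h)
      · rw [h]; exact a.2
      · rw [h]; exact b.2
  have hd : 0 < blockDefect p B := by
    by_contra h0
    have h1 : blockDefect p B = 0 := by omega
    have h2 := Cfsg.Agent.S4494.result p M hM B hB
    rw [hcard, h1] at h2
    norm_num at h2
  obtain ⟨χ₀, hχ₀B, -, hdef⟩ := Cfsg.Agent.S4494.exists_min p M hM B hB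
  have hnd : ¬ p ^ (Nat.card G).factorization p ∣ charDegree (χ₀ : G → ℂ) := by
    intro hdvd
    have hpos := (Helper83.irr_degree χ₀.2).1
    have := (hp.pow_dvd_iff_le_factorization hpos.ne').mp hdvd
    omega
  rw [hBeq] at hχ₀B
  rcases hχ₀B with h | h
  · rw [h] at hnd
    obtain ⟨g, x1, x2, m, h1, h2, h3, h4, h5⟩ :=
      brandt_char_aux p M hM B hB a.1 b.1 hne hBeq hnd
    exact ⟨a.1, b.1, g, x1, x2, m, hne, hBeq, h1, h2, h3, h4, h5, hd⟩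
  · rw [Set.mem_singleton_iff] at h
    rw [h] at hnd
    obtain ⟨g, x1, x2, m, h1, h2, h3, h4, h5⟩ :=
      brandt_char_aux p M hM B hB b.1 a.1 hne.symm (hBeq.trans (Set.pair_comm _ _)) hnd
    exact ⟨b.1, a.1, g, x1, x2, m, hne.symm, hBeq.trans (Set.pair_comm _ _), h1, h2, h3, h4, h5,
      hd⟩

end Cfsg.Agent.Lib.Helper1
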