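import Cfsg.Agent.Lib.Helper1.BrandtGB
import Cfsg.Agent.Lib.Helper94.BrandtAlg1
import Cfsg.Agent.Lib.Helper85.BrandtALG2
import Cfsg.Agent.Lib.Helper75.BrandtBLK
import Cfsg.Agent.Lib.Helper83.IrrBasic

/-!
# Brandt's theorem: the dimension of a block algebra with two characters (helper1)

`brandt_dim`: if a block `B` has exactly two irreducible characters, the sum of the squares of
their degrees is twice a square.
-/

set_option autoImplicit false

namespace Cfsg.Agent.Lib.Helper1

open Cfsg Cfsg.Agent.Lib.Helper21 Cfsg.Agent.Lib.Helper22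

universe u

section Dim

variable {K : Type} [Field K] {G : Type u} [Group G] [Fintype G] [DecidableEq G]

/-- the first column of an invariant matrix -/
def colOne : invAlg K G →ₗ[K] (G → K) where
  toFun X := fun g => (X : Matrix G G K) g 1
  map_add' _ _ := rfl
  map_smul' _ _ := rfl

theorem colOne_injective : Function.Injective (colOne : invAlg K G → (G → K)) := by
  intro X Y h
  apply Subtype.ext
  rw [eq_Lm X.2, eq_Lm Y.2]
  congr 1

theorem finrank_range_mulLeft (e : invAlg K G) :
    Module.finrank K (LinearMap.range (LinearMap.mulLeft K e)) = (e : Matrix G G K).rank := by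
  have h : (LinearMap.range (LinearMap.mulLeft K e)).map colOne =
      LinearMap.range (Matrix.mulVecLin (e : Matrix G G K)) := by
    ext a
    constructor
    · rintro ⟨_, ⟨X, rfl⟩, rfl⟩
      refine ⟨colOne X, ?_⟩
      funext g
      rfl
    · rintro ⟨a, rfl⟩
      refine ⟨e * ⟨Lm a, Lm_mem a⟩, ⟨_, rfl⟩, ?_⟩
      funext g
      change ((e : Matrix G G K) * Lm a) g 1 = _
      rw [Matrix.mul_apply]
      simp only [Matrix.mulVecLin_apply, Matrix.mulVec, dotProduct, Lm_apply, inv_one, mul_one]
  rw [Matrix.rank, ← h]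
  exact (Submodule.equivMapOfInjective colOne colOne_injective _).finrank_eq

/-- a 2-dimensional centre with a nonzero nilpotent element `z` is spanned by `1` and `z` -/
theorem center_span {A : Type*} [Ring A] [Algebra K A] [FiniteDimensional K A]
    (hZ : Module.finrank K (Subalgebra.center K A) = 2) (z : A)
    (hzc : z ∈ Subalgebra.center K A) (hz0 : z ≠ 0) (hznil : IsNilpotent z) :
    ∀ c ∈ Subalgebra.center K A, ∃ α β : K, c = α • (1 : A) + β • z := by
  have : Nontrivial A := ⟨⟨z, 0, hz0⟩⟩
  have hli : LinearIndependent K ![(1 : Subalgebra.center K A), ⟨z, hzc⟩] := by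
    rw [LinearIndependent.pair_iff]
    intro s t hst
    have hst' : s • (1 : A) + t • z = 0 := by
      have := congrArg Subtype.val hst
      simpa using this
    have ht : t = 0 := by
      by_contra ht
      have hz : z = (-(s / t)) • (1 : A) := by
        have h1 : t • z = (-s) • (1 : A) := by
          rw [neg_smul]; exact eq_neg_of_add_eq_zero_right hst'
        have h2 : z = t⁻¹ • (t • z) := by rw [smul_smul, inv_mul_cancel₀ ht, one_smul]
        rw [h2, h1, smul_smul]
        congr 1
        field_simp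
      obtain ⟨k, hk⟩ := hznil
      rw [hz, smul_pow, one_pow] at hk
      have h3 : (-(s / t)) ^ k = 0 := by
        by_contra h3
        have := (smul_eq_zero.mp hk).resolve_left h3
        exact one_ne_zero this
      have h4 : -(s / t) = 0 := pow_eq_zero_iff (n := k) (by
        rintro rfl
        rw [pow_zero] at h3
        exact one_ne_zero h3) |>.mp h3
      apply hz0
      rw [hz, h4, zero_smul]
    refine ⟨?_, ht⟩
    rw [ht, zero_smul, add_zero] at hst'
    exact (smul_eq_zero.mp hst').resolve_right one_ne_zero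
  have hspan := hli.span_eq_top_of_card_eq_finrank' (by rw [hZ]; rfl)
  intro c hc
  have hmem : (⟨c, hc⟩ : Subalgebra.center K A) ∈
      Submodule.span K (Set.range ![(1 : Subalgebra.center K A), ⟨z, hzc⟩]) := by
    rw [hspan]; trivial
  rw [Matrix.range_cons, Matrix.range_cons, Matrix.range_empty, Set.union_empty,
    Set.singleton_union, Submodule.mem_span_pair] at hmem
  obtain ⟨α, β, hαβ⟩ := hmem
  refine ⟨α, β, ?_⟩
  have := congrArg Subtype.val hαβ
  simpa using this.symm

end Dim

section Main

/-- `|G| e_B(1)` is the sum of the squares of the degrees in `B` -/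
theorem card_mul_blockCoeff_one {G : Type u} [Group G] [Fintype G] (B : Set (IrrCharacter G)) :
    (Nat.card G : ℂ) * blockCoeff B 1 =
      ((∑ᶠ χ ∈ B, charDegree (χ : G → ℂ) ^ 2 : ℕ) : ℂ) := by
  classical
  have := Helper4.irr_finite (G := G)
  let _ : Fintype (IrrCharacter G) := Fintype.ofFinite _
  have hG : (Nat.card G : ℂ) ≠ 0 := by exact_mod_cast Nat.card_pos.ne'
  unfold blockCoeff
  rw [mul_inv_cancel_left₀ hG, Helper79.finsum_mem_eq_sum_filter_univ,
    Helper79.finsum_mem_eq_sum_filter_univ]
  push_cast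
  refine Finset.sum_congr rfl fun χ _ => ?_
  rw [(Helper83.irr_degree χ.2).2, Complex.conj_natCast, sq]

/-- if a block has exactly two irreducible characters, the sum of the squares of their degrees is
twice a square -/
theorem brandt_dim {G : Type u} [Group G] [Finite G] (p : ℕ) [Fact p.Prime]
    (M : Ideal AlgInt) (hM : IsPModular p M) (B : Set (IrrCharacter G)) (hB : IsPBlock M B)
    (hcard : Nat.card B = 2) :
    ∃ n : ℕ, ∑ᶠ χ ∈ B, charDegree (χ : G → ℂ) ^ 2 = 2 * n ^ 2 := by
  classical
  let _ : Fintype G := Fintype.ofFinite G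
  obtain ⟨F, instF, res0, hadd0, hmul0, hone0, hzero0⟩ := Helper82.exists_residue_field hM
  letI := instF
  obtain ⟨res, hres⟩ : ∃ res : ℂ → AlgebraicClosure F,
      res = fun x => algebraMap F (AlgebraicClosure F) (res0 x) := ⟨_, rfl⟩
  have hadd : ∀ x y, MemLocalRing M x → MemLocalRing M y → res (x + y) = res x + res y := by
    intro x y hx hy
    rw [hres]
    simp only
    rw [hadd0 x y hx hy, map_add]
  have hmul : ∀ x y, MemLocalRing M x → MemLocalRing M y → res (x * y) = res x * res y := by
    intro x y hx hy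
    rw [hres]
    simp only
    rw [hmul0 x y hx hy, map_mul]
  have hone : res 1 = 1 := by
    rw [hres]
    simp only
    rw [hone0, map_one]
  have hzero : ∀ x, MemLocalRing M x → (res x = 0 ↔ MemLocalIdeal M x) := by
    intro x hx
    rw [hres]
    simp only
    rw [map_eq_zero_iff _ (algebraMap F (AlgebraicClosure F)).injective]
    exact hzero0 x hx
  obtain ⟨P, hPP, hPloc, hPtr, hPint⟩ := Helper7.BrandtCLS.brandt_cls hM B hB
  obtain ⟨χ1, hχ1⟩ : ∃ χ1 : IrrCharacter G, χ1 ∈ B := by
    obtain ⟨a, -, -, -⟩ := Nat.card_eq_two_iff.mp hcard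
    exact ⟨a.1, a.2⟩
  obtain ⟨r, hr1, hr2⟩ := Helper13.BrandtRank.brandt_rank hM res hadd hmul hone P hPP hPloc
  have hr : r = 2 := by
    rw [hPtr, hcard] at hr1
    exact_mod_cast hr1.symm
  have hZ : Module.finrank (AlgebraicClosure F) (ZB res B) = 2 := by
    rw [finrank_ZB hM res hadd hmul hone hzero B hB P hPP hPloc hPint, hr2, hr]
  obtain ⟨c', hc'⟩ := exists_nnB_ne_zero hM res hadd hmul hone hzero B hB χ1 hZ
  obtain ⟨s, hs1, hs2⟩ := Helper13.BrandtRank.brandt_rank hM res hadd hmul hone
    (lmat (blockCoeff B)) (by rw [← lmat_conv, blockCoeff_conv]) (fun i j => osima hM B hB _)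
  have hs3 : Module.finrank (AlgebraicClosure F)
      (LinearMap.range (LinearMap.mulLeft (AlgebraicClosure F) (eB res B))) = s := by
    rw [finrank_range_mulLeft, ← hs2]
    rfl
  have hs4 : s = ∑ᶠ χ ∈ B, charDegree (χ : G → ℂ) ^ 2 := by
    rw [trace_lmat, card_mul_blockCoeff_one] at hs1
    exact_mod_cast hs1.symm
  obtain ⟨A', i1, i2, i3, lam', h1, h2, h3, ⟨z', hz'c, hz'0, hz'n⟩, h5⟩ :=
    Helper75.BrandtBLK.brandt_blk (lamA : invAlg (AlgebraicClosure F) G →ₗ[AlgebraicClosure F] _)
      lamA_symm lamA_nondeg (eB res B) (eB_idem hM res hadd hmul hzero B hB) (eB_central res B)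
      (ZB res B) (mem_ZB res B) hZ (nnB res B χ1 c')
      (nnB_mem hM res hadd hmul hone hzero B hB χ1 c') hc'
      (nnB_nilpotent hM res hadd hmul hone hzero B hB χ1 hχ1 c')
  obtain ⟨n, hn0, π, hπ, hnil, hzJ, hπz⟩ :=
    Helper94.BrandtAlg1.brandt_alg1 lam' h1 h2 h3 z' hz'c hz'0 hz'n
  have hcenter := center_span h3 z' hz'c hz'0 hz'n
  have hfin := Helper85.BrandtAlg2.brandt_alg2 lam' h1 h2 z' hz'c hz'0 hcenter n π hπ hnil hzJ hπz
  exact ⟨n, by rw [← hs4, ← hs3, ← h5, hfin]⟩

end Main

end Cfsg.Agent.Lib.Helper1
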