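import Mathlib
import Cfsg.Agent.Lib.Helper22.NilIdem
import Cfsg.Agent.Lib.Helper22.WeakOrth
import Cfsg.Agent.Lib.Helper22.GAlg
import Cfsg.Agent.Lib.Helper82.ResField

/-!
# Brandt's theorem: the group algebra over the residue field as an algebra of matrices (helper1)

The group algebra `K G` is realised as the subalgebra `invAlg K G` of right-translation invariant
`G × G` matrices; `Lm a` is the matrix of left multiplication by `a : G → K`.
-/

set_option autoImplicit false

namespace Cfsg.Agent.Lib.Helper1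

open Cfsg Cfsg.Agent.Lib.Helper21 Cfsg.Agent.Lib.Helper22

universe u

section InvAlg

variable (K : Type) [Field K] (G : Type u) [Group G] [Fintype G] [DecidableEq G]

/-- The algebra of right-translation invariant matrices: the group algebra `K G`. -/
def invAlg : Subalgebra K (Matrix G G K) where
  carrier := {X | ∀ g k h : G, X (g * h) (k * h) = X g k}
  mul_mem' := by
    intro X Y hX hY g k h
    rw [Matrix.mul_apply, Matrix.mul_apply]
    rw [← Equiv.sum_comp (Equiv.mulRight h) (fun m => X (g * h) m * Y m (k * h))]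
    refine Finset.sum_congr rfl fun m _ => ?_
    rw [Equiv.coe_mulRight, hX, hY]
  add_mem' := by
    intro X Y hX hY g k h
    rw [Matrix.add_apply, Matrix.add_apply, hX, hY]
  algebraMap_mem' := by
    intro r g k h
    rw [Matrix.algebraMap_matrix_apply, Matrix.algebraMap_matrix_apply]
    by_cases hgk : g = k
    · rw [if_pos hgk, if_pos (by rw [hgk])]
    · rw [if_neg hgk, if_neg (fun h' => hgk (mul_right_cancel h'))]

variable {K G}

theorem mem_invAlg {X : Matrix G G K} :
    X ∈ invAlg K G ↔ ∀ g k h : G, X (g * h) (k * h) = X g k := Iff.rfl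

/-- The matrix of left multiplication by `a`. -/
def Lm (a : G → K) : Matrix G G K := Matrix.of fun g k => a (g * k⁻¹)

theorem Lm_apply (a : G → K) (g k : G) : Lm a g k = a (g * k⁻¹) := rfl

theorem Lm_mem (a : G → K) : Lm a ∈ invAlg K G := by
  intro g k h
  rw [Lm_apply, Lm_apply]
  congr 1
  group

theorem eq_Lm {X : Matrix G G K} (hX : X ∈ invAlg K G) : X = Lm (fun g => X g 1) := by
  ext g k
  rw [Lm_apply]
  have := hX (g * k⁻¹) 1 k
  rw [inv_mul_cancel_right, one_mul] at this
  exact this

theorem Lm_injective : Function.Injective (Lm : (G → K) → Matrix G G K) := by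
  intro a b h
  funext g
  have := congrFun (congrFun h g) 1
  rwa [Lm_apply, Lm_apply, inv_one, mul_one] at this

theorem Lm_add (a b : G → K) : Lm (a + b) = Lm a + Lm b := by
  ext g k; simp [Lm_apply]

theorem Lm_smul (c : K) (a : G → K) : Lm (c • a) = c • Lm a := by
  ext g k; simp [Lm_apply]

theorem Lm_mul_apply (a b : G → K) (g k : G) :
    (Lm a * Lm b) g k = ∑ m, a (g * m⁻¹) * b (m * k⁻¹) := by
  rw [Matrix.mul_apply]
  rfl

/-- the first column of a product -/
theorem mul_col_one (X Y : Matrix G G K) (g : G) :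
    (X * Y) g 1 = ∑ m, X g m * Y m 1 := Matrix.mul_apply

end InvAlg

section Rho

variable {p : ℕ} {M : Ideal AlgInt} (hM : IsPModular p M) {K : Type} [Field K] (res : ℂ → K)
  (hadd : ∀ x y, MemLocalRing M x → MemLocalRing M y → res (x + y) = res x + res y)
  (hmul : ∀ x y, MemLocalRing M x → MemLocalRing M y → res (x * y) = res x * res y)
  (hone : res 1 = 1)
  (hzero : ∀ x, MemLocalRing M x → (res x = 0 ↔ MemLocalIdeal M x))
  {G : Type u} [Group G] [Fintype G] [DecidableEq G]

/-- reduction of a function on `G` modulo the local ideal, as an invariant matrix -/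
def rho (res : ℂ → K) (a : G → ℂ) : Matrix G G K := Lm (fun g => res (a g))

theorem rho_apply (a : G → ℂ) (g k : G) : rho res a g k = res (a (g * k⁻¹)) := rfl

theorem rho_mem (a : G → ℂ) : rho res a ∈ invAlg K G := Lm_mem _

include hM hadd hmul hzero in
theorem rho_conv {a b : G → ℂ} (ha : ∀ g, MemLocalRing M (a g)) (hb : ∀ g, MemLocalRing M (b g)) :
    rho res (conv a b) = rho res a * rho res b := by
  ext g k
  rw [rho_apply, Matrix.mul_apply, conv_apply,
    Helper82.res_sum res hM hadd hzero _ _ (fun h _ => locRing_mul hM (ha h) (hb _))]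
  rw [← Equiv.sum_comp ((Equiv.inv G).trans (Equiv.mulLeft g))]
  refine Finset.sum_congr rfl fun m _ => ?_
  rw [hmul _ _ (ha _) (hb _), rho_apply, rho_apply]
  simp only [Equiv.trans_apply, Equiv.inv_apply, Equiv.coe_mulLeft]
  congr 2
  group

include hM hadd in
theorem rho_add {a b : G → ℂ} (ha : ∀ g, MemLocalRing M (a g)) (hb : ∀ g, MemLocalRing M (b g)) :
    rho res (a + b) = rho res a + rho res b := by
  ext g k
  rw [Matrix.add_apply, rho_apply, rho_apply, rho_apply, Pi.add_apply, hadd _ _ (ha _) (hb _)]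

include hM hmul in
theorem rho_smul {c : ℂ} {a : G → ℂ} (hc : MemLocalRing M c) (ha : ∀ g, MemLocalRing M (a g)) :
    rho res (c • a) = res c • rho res a := by
  ext g k
  rw [Matrix.smul_apply, rho_apply, rho_apply, Pi.smul_apply, smul_eq_mul, smul_eq_mul,
    hmul _ _ hc (ha _)]

include hM hzero in
theorem rho_eq_zero {a : G → ℂ} (ha : ∀ g, MemLocalIdeal M (a g)) : rho res a = 0 := by
  ext g k
  rw [rho_apply, Matrix.zero_apply]
  exact (hzero _ (locIdeal_locRing (ha _))).mpr (ha _)

include hM hone hzero in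
theorem rho_classInd_one : rho res (classInd (1 : G)) = 1 := by
  ext g k
  rw [rho_apply, classInd_apply, Matrix.one_apply]
  by_cases hgk : g = k
  · rw [if_pos hgk, if_pos (by rw [hgk, mul_inv_cancel]), hone]
  · rw [if_neg hgk, if_neg, Helper82.res_zero res hM hzero]
    rw [isConj_one_left]
    intro h
    exact hgk (mul_inv_eq_one.mp h)

include hM hadd hmul hone hzero in
theorem rho_cpow {c : G → ℂ} (hc : IsLocClass M c) (n : ℕ) :
    rho res (cpow c n) = rho res c ^ n := by
  induction n with
  | zero => rw [cpow_zero, pow_zero, rho_classInd_one hM res hone hzero]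
  | succ n ih =>
    rw [cpow_succ, rho_conv hM res hadd hmul hzero hc.2 (isLocClass_cpow hM hc n).2, ih, pow_succ']

end Rho

section Center

variable {K : Type} [Field K] {G : Type u} [Group G] [Fintype G] [DecidableEq G]

/-- the coefficient at the identity: the symmetrising form of the group algebra -/
def lamA : (invAlg K G) →ₗ[K] K where
  toFun X := (X : Matrix G G K) 1 1
  map_add' _ _ := rfl
  map_smul' _ _ := rfl

theorem lamA_apply (X : invAlg K G) : lamA X = (X : Matrix G G K) 1 1 := rfl

theorem inv_row {X : Matrix G G K} (hX : X ∈ invAlg K G) (g k : G) : X g k = X 1 (k * g⁻¹) := by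
  have := hX 1 (k * g⁻¹) g
  rw [one_mul, inv_mul_cancel_right] at this
  exact this

theorem inv_col {X : Matrix G G K} (hX : X ∈ invAlg K G) (g k : G) : X g k = X (g * k⁻¹) 1 := by
  have := hX (g * k⁻¹) 1 k
  rw [one_mul, inv_mul_cancel_right] at this
  exact this

theorem lamA_symm (X Y : invAlg K G) : lamA (X * Y) = lamA (Y * X) := by
  rw [lamA_apply, lamA_apply]
  change ((X : Matrix G G K) * (Y : Matrix G G K)) 1 1 = ((Y : Matrix G G K) * (X : Matrix G G K)) 1 1
  rw [Matrix.mul_apply, Matrix.mul_apply, ← Equiv.sum_comp (Equiv.inv G)]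
  refine Finset.sum_congr rfl fun m _ => ?_
  rw [Equiv.inv_apply, inv_row X.2 m 1, one_mul, inv_row Y.2 m⁻¹ 1, one_mul, inv_inv, mul_comm]

/-- the matrix of (left or right) multiplication by the group element `h` -/
def dl (h : G) : invAlg K G := ⟨Lm (Pi.single h (1 : K) : G → K), Lm_mem _⟩

theorem mul_dl_apply (X : Matrix G G K) (h g : G) :
    (X * (dl h : invAlg K G).1) g 1 = X g h := by
  rw [Matrix.mul_apply, Finset.sum_eq_single h]
  · change X g h * (Pi.single h (1 : K) : G → K) (h * 1⁻¹) = _
    rw [inv_one, mul_one, Pi.single_eq_same, mul_one]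
  · intro m _ hm
    change X g m * (Pi.single h (1 : K) : G → K) (m * 1⁻¹) = _
    rw [inv_one, mul_one, Pi.single_eq_of_ne hm, mul_zero]
  · intro h'; exact absurd (Finset.mem_univ h) h'

theorem dl_mul_apply (X : Matrix G G K) (h g : G) :
    ((dl h : invAlg K G).1 * X) g 1 = X (h⁻¹ * g) 1 := by
  rw [Matrix.mul_apply, Finset.sum_eq_single (h⁻¹ * g)]
  · change (Pi.single h (1 : K) : G → K) (g * (h⁻¹ * g)⁻¹) * _ = _
    rw [mul_inv_rev, inv_inv, mul_inv_cancel_left, Pi.single_eq_same, one_mul]
  · intro m _ hm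
    change (Pi.single h (1 : K) : G → K) (g * m⁻¹) * _ = _
    rw [Pi.single_eq_of_ne, zero_mul]
    intro h1
    apply hm
    rw [← h1]
    group
  · intro h'; exact absurd (Finset.mem_univ _) h'

theorem lamA_nondeg (X : invAlg K G) (h : ∀ Y : invAlg K G, lamA (X * Y) = 0) : X = 0 := by
  apply Subtype.ext
  ext g k
  have h1 := h (dl (k * g⁻¹))
  rw [lamA_apply] at h1
  change ((X : Matrix G G K) * (dl (k * g⁻¹) : invAlg K G).1) 1 1 = 0 at h1
  rw [mul_dl_apply] at h1
  rw [inv_row X.2 g k, h1]
  rfl

/-- class functions with values in `K` -/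
def IsCF (a : G → K) : Prop := ∀ g h : G, a (h * g * h⁻¹) = a g

theorem central_of_isCF {a : G → K} (ha : IsCF a) (Y : invAlg K G) :
    (⟨Lm a, Lm_mem a⟩ : invAlg K G) * Y = Y * ⟨Lm a, Lm_mem a⟩ := by
  apply Subtype.ext
  change Lm a * (Y : Matrix G G K) = (Y : Matrix G G K) * Lm a
  ext g k
  rw [Matrix.mul_apply, Matrix.mul_apply,
    ← Equiv.sum_comp (((Equiv.inv G).trans (Equiv.mulLeft k)).trans (Equiv.mulRight g))
      (fun m => (Y : Matrix G G K) g m * Lm a m k)]
  refine Finset.sum_congr rfl fun n _ => ?_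
  simp only [Equiv.trans_apply, Equiv.inv_apply, Equiv.coe_mulLeft, Equiv.coe_mulRight]
  have h1 : (Y : Matrix G G K) g (k * n⁻¹ * g) = (Y : Matrix G G K) n k := by
    have := Y.2 n k (n⁻¹ * g)
    rw [mul_inv_cancel_left, ← mul_assoc] at this
    exact this
  rw [h1, Lm_apply, Lm_apply, mul_comm]
  congr 1
  have h2 : k * n⁻¹ * g * k⁻¹ = k * (n⁻¹ * g) * k⁻¹ := by group
  have h3 : g * n⁻¹ = n * (n⁻¹ * g) * n⁻¹ := by group
  rw [h2, ha, h3, ha]

theorem isCF_of_central (X : invAlg K G) (hX : ∀ Y : invAlg K G, X * Y = Y * X) :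
    IsCF (fun g => (X : Matrix G G K) g 1) := by
  have key : ∀ g h : G, (X : Matrix G G K) (g * h⁻¹) 1 = (X : Matrix G G K) (h⁻¹ * g) 1 := by
    intro g h
    have h1 := congrArg (fun Z : invAlg K G => (Z : Matrix G G K) g 1) (hX (dl h))
    change ((X : Matrix G G K) * (dl h : invAlg K G).1) g 1 =
      ((dl h : invAlg K G).1 * (X : Matrix G G K)) g 1 at h1
    rw [mul_dl_apply, dl_mul_apply] at h1
    rw [← h1, inv_col X.2 g h]
  intro g h
  have := key (h * g) h
  rw [inv_mul_cancel_left] at this
  exact this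

end Center

end Cfsg.Agent.Lib.Helper1
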