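import Cfsg.Agent.Lib.Helper1.BrandtGA
import Cfsg.Agent.Lib.Helper13.BrandtRank
import Cfsg.Agent.Lib.Helper7.BrandtCLS
import Cfsg.Agent.Lib.Helper79.Blk2

/-!
# Brandt's theorem: the block idempotent in the group algebra over the residue field (helper1)
-/

set_option autoImplicit false

namespace Cfsg.Agent.Lib.Helper1

open Cfsg Cfsg.Agent.Lib.Helper21 Cfsg.Agent.Lib.Helper22

universe u

section Blk

variable {p : ℕ} {M : Ideal AlgInt} (hM : IsPModular p M) {K : Type} [Field K] (res : ℂ → K)
  (hadd : ∀ x y, MemLocalRing M x → MemLocalRing M y → res (x + y) = res x + res y)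
  (hmul : ∀ x y, MemLocalRing M x → MemLocalRing M y → res (x * y) = res x * res y)
  (hone : res 1 = 1)
  (hzero : ∀ x, MemLocalRing M x → (res x = 0 ↔ MemLocalIdeal M x))
  {G : Type u} [Group G] [Fintype G] [DecidableEq G] [Fintype (ConjClasses G)]
  [DecidableEq (ConjClasses G)]
  (B : Set (IrrCharacter G)) (hB : IsPBlock M B)

/-- the block idempotent in the group algebra over `K` -/
noncomputable def eB : invAlg K G := ⟨rho res (blockCoeff B), rho_mem res _⟩

include hM hadd hmul hzero hB in
theorem eB_idem : eB res B * eB res B = eB res B := by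
  apply Subtype.ext
  change rho res (blockCoeff B) * rho res (blockCoeff B) = rho res (blockCoeff B)
  rw [← rho_conv hM res hadd hmul hzero (osima hM B hB) (osima hM B hB), blockCoeff_conv]

theorem eB_central (Y : invAlg K G) : eB res B * Y = Y * eB res B :=
  central_of_isCF (a := fun g => res (blockCoeff B g))
    (fun g h => by
      change res (blockCoeff B (h * g * h⁻¹)) = res (blockCoeff B g)
      rw [blockCoeff_isClassFunction B g h]) Y

/-- the class function with values `v` on the classes, as an element of the group algebra -/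
def psi : (ConjClasses G → K) →ₗ[K] invAlg K G where
  toFun v := ⟨Lm (fun g => v (ConjClasses.mk g)), Lm_mem _⟩
  map_add' _ _ := Subtype.ext (by ext g k; rfl)
  map_smul' _ _ := Subtype.ext (by ext g k; rfl)

theorem psi_apply (v : ConjClasses G → K) (g k : G) :
    ((psi v : invAlg K G) : Matrix G G K) g k = v (ConjClasses.mk (g * k⁻¹)) := rfl

theorem psi_central (v : ConjClasses G → K) (Y : invAlg K G) : psi v * Y = Y * psi v :=
  central_of_isCF (a := fun g => v (ConjClasses.mk g))
    (fun g h => by
      have : ConjClasses.mk (h * g * h⁻¹) = ConjClasses.mk g :=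
        ConjClasses.mk_eq_mk_iff_isConj.mpr (isConj_iff.mpr ⟨h⁻¹, by group⟩)
      change v (ConjClasses.mk (h * g * h⁻¹)) = v (ConjClasses.mk g)
      rw [this]) Y

theorem psi_injective : Function.Injective (psi : (ConjClasses G → K) → invAlg K G) := by
  intro v w h
  funext c
  obtain ⟨g, rfl⟩ := ConjClasses.mk_surjective c
  have := congrArg (fun X : invAlg K G => (X : Matrix G G K) g 1) h
  simp only [psi_apply, inv_one, mul_one] at this
  exact this

theorem exists_psi_of_central (X : invAlg K G) (hX : ∀ Y : invAlg K G, X * Y = Y * X) :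
    ∃ v : ConjClasses G → K, psi v = X := by
  have hcf := isCF_of_central X hX
  refine ⟨fun c => (X : Matrix G G K) (Quotient.out c) 1, ?_⟩
  apply Subtype.ext
  ext g k
  rw [psi_apply, inv_col X.2 g k]
  have h1 : IsConj (Quotient.out (ConjClasses.mk (g * k⁻¹))) (g * k⁻¹) :=
    ConjClasses.mk_eq_mk_iff_isConj.mp (Quotient.out_eq _)
  obtain ⟨c, hc⟩ := isConj_iff.mp h1
  have h2 := hcf (Quotient.out (ConjClasses.mk (g * k⁻¹))) c
  simp only at h2
  rw [hc] at h2
  exact h2.symm

/-- the indicator of a class -/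
def cind (c' : ConjClasses G) : G → ℂ := fun h => if ConjClasses.mk h = c' then 1 else 0

omit [Fintype G] [DecidableEq G] [Fintype (ConjClasses G)] in
include hM in
theorem cind_loc (c' : ConjClasses G) (g : G) : MemLocalRing M (cind c' g) := by
  unfold cind
  split_ifs
  · exact locRing_one hM
  · exact locRing_zero hM

omit [Fintype G] [DecidableEq G] [Fintype (ConjClasses G)] in
theorem cind_isClassFunction (c' : ConjClasses G) : IsClassFunction G (cind c') := by
  intro g h
  have : ConjClasses.mk (h * g * h⁻¹) = ConjClasses.mk g :=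
    ConjClasses.mk_eq_mk_iff_isConj.mpr (isConj_iff.mpr ⟨h⁻¹, by group⟩)
  unfold cind
  rw [this]

include hM hone hzero in
theorem psi_single (c' : ConjClasses G) (x : K) :
    psi (Pi.single c' x) = x • (⟨rho res (cind c'), rho_mem res _⟩ : invAlg K G) := by
  apply Subtype.ext
  ext g k
  rw [psi_apply]
  change _ = x • (rho res (cind c') g k)
  rw [rho_apply, smul_eq_mul]
  unfold cind
  by_cases h : ConjClasses.mk (g * k⁻¹) = c'
  · rw [h, Pi.single_eq_same, if_pos rfl, hone, mul_one]
  · rw [Pi.single_eq_of_ne h, if_neg h, Helper82.res_zero res hM hzero, mul_zero]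

section Cls

variable (P : Matrix (ConjClasses G) (ConjClasses G) ℂ)
  (hPP : P * P = P) (hPloc : ∀ c c', MemLocalRing M (P c c'))
  (hPint : ∀ (c' : ConjClasses G) (g : G),
        conv (blockCoeff B) (fun h => if ConjClasses.mk h = c' then (1 : ℂ) else 0) g =
          P (ConjClasses.mk g) c')

include hM hadd hmul hzero hPP hPloc in
omit [Fintype G] [DecidableEq G] in
theorem Pmap_idem : P.map res * P.map res = P.map res := by
  ext c c'
  rw [Matrix.mul_apply]
  simp only [Matrix.map_apply]
  rw [← hPP, Matrix.mul_apply, Helper82.res_sum res hM hadd hzero _ _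
    (fun i _ => locRing_mul hM (hPloc _ _) (hPloc _ _))]
  refine Finset.sum_congr rfl fun i _ => ?_
  rw [hmul _ _ (hPloc _ _) (hPloc _ _), hPP]

include hM hadd hmul hone hzero hB hPint in
theorem eB_psi (v : ConjClasses G → K) :
    eB res B * psi v = psi ((P.map res).mulVec v) := by
  have key : (LinearMap.mulLeft K (eB res B)).comp (psi : (ConjClasses G → K) →ₗ[K] invAlg K G) =
      psi.comp (Matrix.mulVecLin (P.map res)) := by
    apply LinearMap.pi_ext
    intro c' x
    simp only [LinearMap.comp_apply, LinearMap.mulLeft_apply, Matrix.mulVecLin_apply]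
    rw [psi_single hM res hone hzero, mul_smul_comm]
    apply Subtype.ext
    ext g k
    change x • ((rho res (blockCoeff B) * rho res (cind c')) g k) = _
    rw [← rho_conv hM res hadd hmul hzero (osima hM B hB) (cind_loc hM c'), rho_apply, psi_apply,
      Matrix.mulVec_single]
    have h1 : conv (blockCoeff B) (cind c') (g * k⁻¹) = P (ConjClasses.mk (g * k⁻¹)) c' :=
      hPint c' (g * k⁻¹)
    rw [h1]
    simp [mul_comm]
  exact LinearMap.congr_fun key v

/-- the block part of the centre -/
noncomputable def ZB : Submodule K (invAlg K G) :=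
  (Subalgebra.center K (invAlg K G)).toSubmodule ⊓
    LinearMap.eqLocus (LinearMap.mulLeft K (eB res B)) LinearMap.id

omit [Fintype (ConjClasses G)] [DecidableEq (ConjClasses G)] in
theorem mem_ZB (c : invAlg K G) :
    c ∈ ZB res B ↔ (c ∈ Subalgebra.center K (invAlg K G) ∧ eB res B * c = c) := by
  simp [ZB, LinearMap.mem_eqLocus]

include hM hadd hmul hone hzero hB hPint hPP hPloc in
theorem ZB_eq : ZB res B = (LinearMap.range (Matrix.mulVecLin (P.map res))).map psi := by
  ext c
  rw [mem_ZB, Submodule.mem_map]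
  constructor
  · rintro ⟨hc, hec⟩
    obtain ⟨v, rfl⟩ := exists_psi_of_central c
      (fun Y => ((Subalgebra.mem_center_iff.mp hc) Y).symm)
    rw [eB_psi hM res hadd hmul hone hzero B hB P hPint] at hec
    exact ⟨v, ⟨v, psi_injective hec⟩, rfl⟩
  · rintro ⟨v, ⟨u, rfl⟩, rfl⟩
    refine ⟨Subalgebra.mem_center_iff.mpr (fun Y => (psi_central _ Y).symm), ?_⟩
    rw [eB_psi hM res hadd hmul hone hzero B hB P hPint, Matrix.mulVecLin_apply,
      Matrix.mulVec_mulVec, Pmap_idem hM res hadd hmul hzero P hPP hPloc]

include hM hadd hmul hone hzero hB hPint hPP hPloc in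
theorem finrank_ZB : Module.finrank K (ZB res B) = (P.map res).rank := by
  rw [ZB_eq hM res hadd hmul hone hzero B hB P hPP hPloc hPint, Matrix.rank]
  exact (Submodule.equivMapOfInjective psi psi_injective _).finrank_eq.symm

/-- the nilpotent part of a block class sum -/
noncomputable def nnB (χ1 : IrrCharacter G) (c' : ConjClasses G) : invAlg K G :=
  eB res B * psi (Pi.single c' 1) - res (omega (χ1 : G → ℂ) (cind c')) • eB res B

include hM hadd hmul hone hzero hB in
omit [Fintype (ConjClasses G)] in
theorem nnB_coe (χ1 : IrrCharacter G) (c' : ConjClasses G) :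
    ((nnB res B χ1 c' : invAlg K G) : Matrix G G K) =
      rho res (conv (blockCoeff B) (cind c') +
        (-(omega (χ1 : G → ℂ) (cind c'))) • blockCoeff B) := by
  have hα : MemLocalRing M (omega (χ1 : G → ℂ) (cind c')) :=
    Helper22.omega_locRing hM χ1 ⟨cind_isClassFunction c', cind_loc hM c'⟩
  have hneg : res (-(omega (χ1 : G → ℂ) (cind c'))) = - res (omega (χ1 : G → ℂ) (cind c')) := by
    have h := hadd _ _ (locRing_neg hα) hα
    rw [neg_add_cancel, Helper82.res_zero res hM hzero] at h
    exact eq_neg_of_add_eq_zero_left h.symm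
  rw [rho_add hM res hadd (a := conv (blockCoeff B) (cind c'))
      (b := (-(omega (χ1 : G → ℂ) (cind c'))) • blockCoeff B)
      (fun g => (isLocClass_conv hM
      ⟨blockCoeff_isClassFunction B, osima hM B hB⟩
      ⟨cind_isClassFunction c', cind_loc hM c'⟩).2 g)
      (fun g => locRing_mul hM (locRing_neg hα) (osima hM B hB g)),
    rho_conv hM res hadd hmul hzero (osima hM B hB) (cind_loc hM c'),
    rho_smul hM res hmul (locRing_neg hα) (osima hM B hB), hneg]
  unfold nnB
  rw [psi_single hM res hone hzero, one_smul, neg_smul, ← sub_eq_add_neg]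
  rfl

include hM hadd hmul hone hzero hB in
omit [Fintype (ConjClasses G)] in
theorem nnB_nilpotent (χ1 : IrrCharacter G) (hχ1 : χ1 ∈ B) (c' : ConjClasses G) :
    IsNilpotent (nnB res B χ1 c') := by
  have hE : IsLocClass M (blockCoeff B) := ⟨blockCoeff_isClassFunction B, osima hM B hB⟩
  have hC : IsLocClass M (cind c') := ⟨cind_isClassFunction c', cind_loc hM c'⟩
  have hα : MemLocalRing M (omega (χ1 : G → ℂ) (cind c')) := Helper22.omega_locRing hM χ1 hC
  have hcc : IsLocClass M (conv (blockCoeff B) (cind c') +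
      (-(omega (χ1 : G → ℂ) (cind c'))) • blockCoeff B) :=
    isLocClass_add hM (isLocClass_conv hM hE hC) (isLocClass_smul hM (locRing_neg hα) hE)
  have hω : ∀ ξ : IrrCharacter G, MemLocalIdeal M (omega (ξ : G → ℂ)
      (conv (blockCoeff B) (cind c') + (-(omega (χ1 : G → ℂ) (cind c'))) • blockCoeff B)) := by
    intro ξ
    rw [omega_add, omega_smul, omega_conv ξ _ _ hE.1 hC.1, omega_blockCoeff]
    by_cases hξ : ξ ∈ B
    · rw [if_pos hξ, one_mul, mul_one, ← sub_eq_add_neg]
      apply omega_sub_locIdeal hM _ hC.1 hC.2 ξ χ1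
      have h1 : χ1 ∈ blockOf M (ξ : G → ℂ) := by
        rw [← Helper79.blockOf_eq_of_mem hM hB hξ]; exact hχ1
      exact h1
    · rw [if_neg hξ, zero_mul, mul_zero, add_zero]
      exact locIdeal_zero hM
  obtain ⟨n, hn⟩ := exists_cpow_locIdeal hM hcc hω
  refine ⟨n, ?_⟩
  apply Subtype.ext
  rw [SubmonoidClass.coe_pow, nnB_coe hM res hadd hmul hone hzero B hB,
    ← rho_cpow hM res hadd hmul hone hzero hcc, rho_eq_zero hM res hzero hn]
  rfl

include hM hadd hmul hone hzero hB in
theorem nnB_mem (χ1 : IrrCharacter G) (c' : ConjClasses G) : nnB res B χ1 c' ∈ ZB res B := by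
  have h2 : eB res B ∈ ZB res B :=
    (mem_ZB res B _).mpr ⟨Subalgebra.mem_center_iff.mpr (fun Y => (eB_central res B Y).symm),
      eB_idem hM res hadd hmul hzero B hB⟩
  have h1 : eB res B * psi (Pi.single c' 1) ∈ ZB res B := by
    refine (mem_ZB res B _).mpr ⟨?_, ?_⟩
    · exact mul_mem (Subalgebra.mem_center_iff.mpr (fun Y => (eB_central res B Y).symm))
        (Subalgebra.mem_center_iff.mpr (fun Y => (psi_central _ Y).symm))
    · rw [← mul_assoc, eB_idem hM res hadd hmul hzero B hB]
  exact sub_mem h1 (Submodule.smul_mem _ _ h2)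

include hM hadd hmul hone hzero hB in
theorem exists_nnB_ne_zero (χ1 : IrrCharacter G) (hfin : Module.finrank K (ZB res B) = 2) :
    ∃ c' : ConjClasses G, nnB res B χ1 c' ≠ 0 := by
  by_contra hcon
  push Not at hcon
  have hle : ZB res B ≤ Submodule.span K {eB res B} := by
    intro c hc
    obtain ⟨hcc, hec⟩ := (mem_ZB res B c).mp hc
    obtain ⟨v, rfl⟩ := exists_psi_of_central c
      (fun Y => ((Subalgebra.mem_center_iff.mp hcc) Y).symm)
    rw [← hec, ← Finset.univ_sum_single v, map_sum, Finset.mul_sum]
    refine Submodule.sum_mem _ fun c' _ => ?_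
    have h1 : (Pi.single c' (v c') : ConjClasses G → K) = v c' • Pi.single c' (1 : K) := by
      rw [← Pi.single_smul, smul_eq_mul, mul_one]
    have h2 : eB res B * psi (Pi.single c' (1 : K)) =
        res (omega (χ1 : G → ℂ) (cind c')) • eB res B := sub_eq_zero.mp (hcon c')
    rw [h1, map_smul, mul_smul_comm, h2, smul_smul]
    exact Submodule.smul_mem _ _ (Submodule.mem_span_singleton_self _)
  have h3 := Submodule.finrank_mono hle
  have h4 := finrank_span_le_card (R := K) ({eB res B} : Set (invAlg K G))
  rw [hfin] at h3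
  simp at h4
  omega

end Cls

end Blk

end Cfsg.Agent.Lib.Helper1
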