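import Mathlib

/-!
# Combinatorics for Brauer's theorem on abelian Sylow subgroups with Frobenius normalizer (helper1)

* `root_of_norm_two`: an integer vector of norm `2` orthogonal to a positive vector is `e_a - e_b`.
* `star_lemma`: a set of integer vectors whose pairwise differences are roots `e_a - e_b` is of
  the form `{D + ε e_θ}`.
* `gram_core`: vectors `c ψ` with Gram matrix `m + [ψ ~ ψ']`, orthogonal to a positive vector.
-/

set_option autoImplicit false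

namespace Cfsg.Agent.Lib.Helper1

section Star

theorem root_of_norm_two {β : Type*} [Fintype β] [DecidableEq β] (v deg : β → ℤ)
    (hdeg : ∀ x, v x ≠ 0 → 0 < deg x) (h2 : ∑ x, v x ^ 2 = 2) (h0 : ∑ x, v x * deg x = 0) :
    ∃ a b, a ≠ b ∧ ∀ x, v x = (if x = a then 1 else 0) - (if x = b then 1 else 0) := by
  classical
  obtain ⟨a, ha⟩ : ∃ a, v a ≠ 0 := by
    by_contra hcon
    push Not at hcon
    simp [hcon] at h2
  have hsplit : v a ^ 2 + ∑ x ∈ Finset.univ.erase a, v x ^ 2 = 2 := by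
    rw [← h2]; exact Finset.add_sum_erase Finset.univ (fun x => v x ^ 2) (Finset.mem_univ a)
  have hnn : 0 ≤ ∑ x ∈ Finset.univ.erase a, v x ^ 2 := Finset.sum_nonneg fun x _ => sq_nonneg _
  have ha1 : v a = 1 ∨ v a = -1 := by
    have h1 : v a ^ 2 ≤ 2 := by linarith
    have h3 : v a ≤ 1 := by nlinarith
    have h4 : -1 ≤ v a := by nlinarith
    omega
  have ha2 : v a ^ 2 = 1 := by rcases ha1 with h | h <;> rw [h] <;> norm_num
  have hrest : ∑ x ∈ Finset.univ.erase a, v x ^ 2 = 1 := by linarith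
  obtain ⟨b, hb, hvb⟩ : ∃ b ∈ Finset.univ.erase a, v b ≠ 0 := by
    by_contra hcon
    push Not at hcon
    rw [Finset.sum_eq_zero (fun x hx => by rw [hcon x hx]; norm_num)] at hrest
    exact absurd hrest (by norm_num)
  have hba : b ≠ a := Finset.ne_of_mem_erase hb
  have hsplit2 : v b ^ 2 + ∑ x ∈ (Finset.univ.erase a).erase b, v x ^ 2 = 1 := by
    rw [← hrest]; exact Finset.add_sum_erase (Finset.univ.erase a) (fun x => v x ^ 2) hb
  have hnn2 : 0 ≤ ∑ x ∈ (Finset.univ.erase a).erase b, v x ^ 2 :=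
    Finset.sum_nonneg fun x _ => sq_nonneg _
  have hb1 : v b = 1 ∨ v b = -1 := by
    have h1 : v b ^ 2 ≤ 1 := by linarith
    have h3 : v b ≤ 1 := by nlinarith
    have h4 : -1 ≤ v b := by nlinarith
    omega
  have hb2 : v b ^ 2 = 1 := by rcases hb1 with h | h <;> rw [h] <;> norm_num
  have hrest2 : ∑ x ∈ (Finset.univ.erase a).erase b, v x ^ 2 = 0 := by linarith
  have hzero : ∀ x, x ≠ a → x ≠ b → v x = 0 := by
    intro x hxa hxb
    have h1 := (Finset.sum_eq_zero_iff_of_nonneg (fun x _ => sq_nonneg (v x))).mp hrest2 x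
      (Finset.mem_erase.mpr ⟨hxb, Finset.mem_erase.mpr ⟨hxa, Finset.mem_univ x⟩⟩)
    exact pow_eq_zero_iff (two_ne_zero) |>.mp h1
  have hsum : ∑ x, v x * deg x = v a * deg a + v b * deg b := by
    apply Finset.sum_eq_add a b hba.symm
    · intro c _ hc
      rw [hzero c hc.1 hc.2, zero_mul]
    · intro h; exact absurd (Finset.mem_univ a) h
    · intro h; exact absurd (Finset.mem_univ b) h
  rw [hsum] at h0
  have hda := hdeg a ha
  have hdb := hdeg b hvb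
  rcases ha1 with ha1 | ha1 <;> rcases hb1 with hb1 | hb1
  · rw [ha1, hb1] at h0; linarith
  · refine ⟨a, b, hba.symm, fun x => ?_⟩
    by_cases hxa : x = a
    · subst hxa; rw [if_pos rfl, if_neg hba.symm, ha1]; norm_num
    · by_cases hxb : x = b
      · subst hxb; rw [if_neg hxa, if_pos rfl, hb1]; norm_num
      · rw [if_neg hxa, if_neg hxb, hzero x hxa hxb]; norm_num
  · refine ⟨b, a, hba, fun x => ?_⟩
    by_cases hxa : x = a
    · subst hxa; rw [if_pos rfl, if_neg hba.symm, ha1]; norm_num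
    · by_cases hxb : x = b
      · subst hxb; rw [if_neg hxa, if_pos rfl, hb1]; norm_num
      · rw [if_neg hxa, if_neg hxb, hzero x hxa hxb]; norm_num
  · rw [ha1, hb1] at h0; linarith

theorem root_claim {β : Type*} [DecidableEq β] (a b a' b' g d : β) (hab : a ≠ b)
    (ha'b' : a' ≠ b') (haa' : a ≠ a') (hbb' : b ≠ b')
    (h : ∀ x : β, ((if x = a then (1 : ℤ) else 0) - (if x = b then 1 else 0)) -
      ((if x = a' then 1 else 0) - (if x = b' then 1 else 0)) =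
      (if x = g then 1 else 0) - (if x = d then 1 else 0)) : False := by
  have h1 := h a
  have h2 := h b'
  rw [if_pos rfl, if_neg hab, if_neg haa'] at h1
  rw [if_neg (Ne.symm hbb'), if_neg (Ne.symm ha'b'), if_pos rfl] at h2
  by_cases e1 : a = b'
  · rw [if_pos e1] at h1
    split_ifs at h1 <;> omega
  · rw [if_neg e1] at h1
    rw [if_neg (Ne.symm e1)] at h2
    have hag : a = g := by
      by_contra hne
      rw [if_neg hne] at h1
      split_ifs at h1 <;> omega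
    have hb'g : b' = g := by
      by_contra hne
      rw [if_neg hne] at h2
      split_ifs at h2 <;> omega
    exact e1 (hag.trans hb'g.symm)

theorem root_unique_left {β : Type*} [DecidableEq β] (a b a' b' : β) (hab : a ≠ b)
    (h : ∀ x : β, ((if x = a then (1 : ℤ) else 0) - (if x = b then 1 else 0)) =
      ((if x = a' then 1 else 0) - (if x = b' then 1 else 0))) : a = a' := by
  have h1 := h a
  rw [if_pos rfl, if_neg hab] at h1
  by_contra hne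
  rw [if_neg hne] at h1
  split_ifs at h1 <;> omega

theorem root_unique_right {β : Type*} [DecidableEq β] (a b a' b' : β) (hab : a ≠ b)
    (h : ∀ x : β, ((if x = a then (1 : ℤ) else 0) - (if x = b then 1 else 0)) =
      ((if x = a' then 1 else 0) - (if x = b' then 1 else 0))) : b = b' := by
  have h1 := h b
  rw [if_neg (Ne.symm hab), if_pos rfl] at h1
  by_contra hne
  rw [if_neg hne] at h1
  split_ifs at h1 <;> omega

/-- **Star lemma**: a set of integer vectors (with at least two members) whose pairwise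
differences are roots `e_a - e_b` is contained in `{D + ε e_θ}` for one sign `ε` and one `D`. -/
theorem star_lemma {β : Type*} [DecidableEq β] (S : Set (β → ℤ))
    (hS : ∀ u ∈ S, ∀ v ∈ S, u ≠ v → ∃ a b, a ≠ b ∧
      ∀ x, u x - v x = (if x = a then 1 else 0) - (if x = b then 1 else 0))
    (h2 : ∃ u ∈ S, ∃ v ∈ S, u ≠ v) :
    ∃ (ε : ℤ) (D : β → ℤ), (ε = 1 ∨ ε = -1) ∧
      ∀ u ∈ S, ∃ θ, ∀ x, u x = D x + ε * (if x = θ then 1 else 0) := by
  obtain ⟨v1, hv1, v0, hv0, h10⟩ := h2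
  obtain ⟨α, β', hαβ, hroot⟩ := hS v1 hv1 v0 hv0 h10
  by_cases hI : ∀ w ∈ S, w ≠ v0 → ∃ b, ∀ x, w x - v0 x =
      (if x = α then 1 else 0) - (if x = b then 1 else 0)
  · refine ⟨-1, fun x => v0 x + (if x = α then 1 else 0), Or.inr rfl, ?_⟩
    intro u hu
    by_cases hu0 : u = v0
    · exact ⟨α, fun x => by rw [hu0]; ring⟩
    · obtain ⟨b, hb⟩ := hI u hu hu0
      exact ⟨b, fun x => by have := hb x; linarith⟩
  by_cases hII : ∀ w ∈ S, w ≠ v0 → ∃ a, ∀ x, w x - v0 x =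
      (if x = a then 1 else 0) - (if x = β' then 1 else 0)
  · refine ⟨1, fun x => v0 x - (if x = β' then 1 else 0), Or.inl rfl, ?_⟩
    intro u hu
    by_cases hu0 : u = v0
    · exact ⟨β', fun x => by rw [hu0]; ring⟩
    · obtain ⟨a, ha⟩ := hII u hu hu0
      exact ⟨a, fun x => by have := ha x; linarith⟩
  exfalso
  push Not at hI hII
  obtain ⟨w, hw, hw0, hwI⟩ := hI
  obtain ⟨w', hw', hw'0, hwII⟩ := hII
  obtain ⟨a, b, hab, hwr⟩ := hS w hw v0 hv0 hw0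
  obtain ⟨a', b', ha'b', hw'r⟩ := hS w' hw' v0 hv0 hw'0
  have haα : a ≠ α := by
    rintro rfl
    obtain ⟨x, hx⟩ := hwI b
    exact hx (hwr x)
  have hb'β : b' ≠ β' := by
    rintro rfl
    obtain ⟨x, hx⟩ := hwII a'
    exact hx (hw'r x)
  have hbβ : b = β' := by
    by_cases hwv : w = v1
    · exfalso
      apply haα
      apply root_unique_left a b α β' hab
      intro x
      rw [← hwr x, ← hroot x, hwv]
    · obtain ⟨g, d, -, hr⟩ := hS w hw v1 hv1 hwv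
      by_contra hne
      exact root_claim a b α β' g d hab hαβ haα hne
        (fun x => by have e1 := hwr x; have e2 := hroot x; have e3 := hr x; linarith)
  have ha'α : a' = α := by
    by_cases hwv : w' = v1
    · apply root_unique_left a' b' α β' ha'b'
      intro x
      rw [← hw'r x, ← hroot x, hwv]
    · obtain ⟨g, d, -, hr⟩ := hS w' hw' v1 hv1 hwv
      by_contra hne
      exact root_claim a' b' α β' g d ha'b' hαβ hne hb'β
        (fun x => by have e1 := hw'r x; have e2 := hroot x; have e3 := hr x; linarith)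
  by_cases hww : w = w'
  · apply haα
    rw [← ha'α]
    apply root_unique_left a b a' b' hab
    intro x
    rw [← hwr x, ← hw'r x, hww]
  · obtain ⟨g, d, -, hr⟩ := hS w hw w' hw' hww
    exact root_claim a b a' b' g d hab ha'b' (by rw [ha'α]; exact haα) (by rw [hbβ]; exact hb'β.symm)
      (fun x => by have e1 := hwr x; have e2 := hw'r x; have e3 := hr x; linarith)

end Star

section Gram

/-- **Gram core**: integer vectors `c ψ` (`ψ ∈ S`) with Gram matrix `m + [R ψ ψ']`, all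
orthogonal to a vector `deg` positive on their supports, with at least two `R`-classes, are of the
form `D + ε e_{Θ ψ}`, with `Θ` separating exactly the `R`-classes and `D ∘ Θ` constant. -/
theorem gram_core {β Ψ : Type*} [Fintype β] [DecidableEq β]
    (S : Set Ψ) (R : Ψ → Ψ → Prop) (c : Ψ → β → ℤ) (deg : β → ℤ) (m : ℤ)
    (hdeg : ∀ ψ ∈ S, ∀ χ, c ψ χ ≠ 0 → 0 < deg χ)
    (hG1 : ∀ ψ ∈ S, ∀ ψ' ∈ S, R ψ ψ' → ∑ χ, c ψ χ * c ψ' χ = m + 1)
    (hG0 : ∀ ψ ∈ S, ∀ ψ' ∈ S, ¬ R ψ ψ' → ∑ χ, c ψ χ * c ψ' χ = m)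
    (hRrefl : ∀ ψ ∈ S, R ψ ψ)
    (hD : ∀ ψ ∈ S, ∑ χ, c ψ χ * deg χ = 0)
    (h2 : ∃ ψ ∈ S, ∃ ψ' ∈ S, ¬ R ψ ψ') :
    ∃ (ε d : ℤ) (D : β → ℤ) (Θ : Ψ → β), (ε = 1 ∨ ε = -1) ∧
      (∀ ψ ∈ S, ∀ χ, c ψ χ = D χ + ε * (if χ = Θ ψ then 1 else 0)) ∧
      (∀ ψ ∈ S, ∀ ψ' ∈ S, (Θ ψ = Θ ψ' ↔ R ψ ψ')) ∧
      (∀ ψ ∈ S, D (Θ ψ) = -d) ∧
      (∀ ψ ∈ S, ∃ ψ' ∈ S, c ψ' (Θ ψ) ≠ 0) := by
  classical
  have hsq : ∀ ψ ψ', ∑ χ, (c ψ χ - c ψ' χ) ^ 2 =
      ∑ χ, c ψ χ * c ψ χ - 2 * ∑ χ, c ψ χ * c ψ' χ + ∑ χ, c ψ' χ * c ψ' χ := by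
    intro ψ ψ'
    rw [Finset.mul_sum, ← Finset.sum_sub_distrib, ← Finset.sum_add_distrib]
    exact Finset.sum_congr rfl fun χ _ => by ring
  have key1 : ∀ ψ ∈ S, ∀ ψ' ∈ S, R ψ ψ' → c ψ = c ψ' := by
    intro ψ hψ ψ' hψ' hR
    have h := hsq ψ ψ'
    rw [hG1 ψ hψ ψ hψ (hRrefl ψ hψ), hG1 ψ hψ ψ' hψ' hR,
      hG1 ψ' hψ' ψ' hψ' (hRrefl ψ' hψ')] at h
    have h0 : ∑ χ, (c ψ χ - c ψ' χ) ^ 2 = 0 := by rw [h]; ring
    funext χ
    have h1 := (Finset.sum_eq_zero_iff_of_nonneg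
      (fun χ _ => sq_nonneg (c ψ χ - c ψ' χ))).mp h0 χ (Finset.mem_univ χ)
    have h3 := (pow_eq_zero_iff (two_ne_zero)).mp h1
    linarith
  have key0 : ∀ ψ ∈ S, ∀ ψ' ∈ S, ¬ R ψ ψ' → ∃ a b, a ≠ b ∧
      ∀ x, c ψ x - c ψ' x = (if x = a then 1 else 0) - (if x = b then 1 else 0) := by
    intro ψ hψ ψ' hψ' hR
    have h := hsq ψ ψ'
    rw [hG1 ψ hψ ψ hψ (hRrefl ψ hψ), hG0 ψ hψ ψ' hψ' hR,
      hG1 ψ' hψ' ψ' hψ' (hRrefl ψ' hψ')] at h
    have h2' : ∑ χ, (c ψ χ - c ψ' χ) ^ 2 = 2 := by rw [h]; ring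
    refine root_of_norm_two (fun χ => c ψ χ - c ψ' χ) deg ?_ h2' ?_
    · intro x hx
      by_cases h1 : c ψ x = 0
      · have h3 : c ψ' x ≠ 0 := by
          intro h3; apply hx; show c ψ x - c ψ' x = 0; rw [h1, h3]; ring
        exact hdeg ψ' hψ' x h3
      · exact hdeg ψ hψ x h1
    · have h3 : (∑ x, (c ψ x - c ψ' x) * deg x) = ∑ x, c ψ x * deg x - ∑ x, c ψ' x * deg x := by
        rw [← Finset.sum_sub_distrib]; exact Finset.sum_congr rfl fun χ _ => by ring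
      rw [h3, hD ψ hψ, hD ψ' hψ']; ring
  have hne : ∀ ψ ∈ S, ∀ ψ' ∈ S, ¬ R ψ ψ' → c ψ ≠ c ψ' := by
    intro ψ hψ ψ' hψ' hR heq
    obtain ⟨a, b, hab, h⟩ := key0 ψ hψ ψ' hψ' hR
    have h1 := h a
    rw [heq, if_pos rfl, if_neg hab] at h1
    simp at h1
  obtain ⟨ε, D, hε, hstar⟩ := star_lemma {u | ∃ ψ ∈ S, u = c ψ} (by
      rintro u ⟨ψ, hψ, rfl⟩ v ⟨ψ', hψ', rfl⟩ huv
      apply key0 ψ hψ ψ' hψ'
      intro hR
      exact huv (key1 ψ hψ ψ' hψ' hR)) (by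
      obtain ⟨ψ, hψ, ψ', hψ', hR⟩ := h2
      exact ⟨c ψ, ⟨ψ, hψ, rfl⟩, c ψ', ⟨ψ', hψ', rfl⟩, hne ψ hψ ψ' hψ' hR⟩)
  obtain ⟨ψ1, hψ1, ψ2, hψ2, hR12⟩ := h2
  have hex : ∀ ψ, ∃ θ, ψ ∈ S → ∀ x, c ψ x = D x + ε * (if x = θ then 1 else 0) := by
    intro ψ
    by_cases hψ : ψ ∈ S
    · obtain ⟨θ, hθ⟩ := hstar (c ψ) ⟨ψ, hψ, rfl⟩
      exact ⟨θ, fun _ => hθ⟩
    · obtain ⟨θ, -⟩ := hstar (c ψ1) ⟨ψ1, hψ1, rfl⟩
      exact ⟨θ, fun h => absurd h hψ⟩
  choose Θ hΘ using hex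
  have hε0 : ε ≠ 0 := by rcases hε with h | h <;> rw [h] <;> norm_num
  have hε2 : ε ^ 2 = 1 := by rcases hε with h | h <;> rw [h] <;> norm_num
  have hΘiff : ∀ ψ ∈ S, ∀ ψ' ∈ S, (Θ ψ = Θ ψ' ↔ R ψ ψ') := by
    intro ψ hψ ψ' hψ'
    constructor
    · intro h
      by_contra hR
      apply hne ψ hψ ψ' hψ' hR
      funext x
      rw [hΘ ψ hψ x, hΘ ψ' hψ' x, h]
    · intro hR
      have h := key1 ψ hψ ψ' hψ' hR
      have h1 := hΘ ψ hψ (Θ ψ)
      have h3 := hΘ ψ' hψ' (Θ ψ)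
      rw [if_pos rfl] at h1
      by_contra hne'
      rw [if_neg hne', ← h, h1] at h3
      apply hε0; linarith
  have hdiag : ∀ ψ ∈ S, 2 * ε * D (Θ ψ) = m - ∑ χ, D χ ^ 2 := by
    intro ψ hψ
    have h := hG1 ψ hψ ψ hψ (hRrefl ψ hψ)
    have h1 : ∑ χ, c ψ χ * c ψ χ = ∑ χ, D χ ^ 2 + (2 * ε * D (Θ ψ) + ε ^ 2) := by
      have h3 : ∀ χ, c ψ χ * c ψ χ =
          D χ ^ 2 + (if χ = Θ ψ then 2 * ε * D χ + ε ^ 2 else 0) := by
        intro χ
        rw [hΘ ψ hψ χ]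
        split_ifs <;> ring
      rw [Finset.sum_congr rfl (fun χ _ => h3 χ), Finset.sum_add_distrib,
        Finset.sum_ite_eq' Finset.univ (Θ ψ) (fun χ => 2 * ε * D χ + ε ^ 2),
        if_pos (Finset.mem_univ _)]
    rw [h1, hε2] at h
    linarith
  refine ⟨ε, -D (Θ ψ1), D, Θ, hε, hΘ, hΘiff, ?_, ?_⟩
  · intro ψ hψ
    have h1 := hdiag ψ hψ
    have h3 := hdiag ψ1 hψ1
    have h4 : ε * D (Θ ψ) = ε * D (Θ ψ1) := by linarith
    rw [neg_neg]
    exact mul_left_cancel₀ hε0 h4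
  · intro ψ hψ
    have h5 : ∃ ψ' ∈ S, ¬ R ψ ψ' := by
      by_contra hcon
      push Not at hcon
      exact hne ψ1 hψ1 ψ2 hψ2 hR12
        ((key1 ψ hψ ψ1 hψ1 (hcon ψ1 hψ1)).symm.trans (key1 ψ hψ ψ2 hψ2 (hcon ψ2 hψ2)))
    obtain ⟨ψ', hψ', hR⟩ := h5
    have hΘne : Θ ψ ≠ Θ ψ' := fun h => hR ((hΘiff ψ hψ ψ' hψ').mp h)
    have h1 := hΘ ψ hψ (Θ ψ)
    have h3 := hΘ ψ' hψ' (Θ ψ)
    rw [if_pos rfl] at h1
    rw [if_neg hΘne] at h3
    by_cases h4 : c ψ (Θ ψ) = 0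
    · refine ⟨ψ', hψ', ?_⟩
      intro h6
      apply hε0; linarith
    · exact ⟨ψ, hψ, h4⟩

end Gram

end Cfsg.Agent.Lib.Helper1
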