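import Mathlib
import Cfsg.Agent.Lib.Helper81.G2Base
import Cfsg.Agent.Lib.Helper81.SqDer
import Cfsg.Agent.Lib.Helper81.SlSylB

/-!
# Piece T1 of S4632 (helper81): the group `⟨s, w⟩` with its normal form
(a copy of `Cfsg.Agent.Lib.Helper81.SlSyl.sl2_pair_group` with more output)
-/

set_option autoImplicit false

namespace Cfsg.Agent.Lib.Helper1.G2

open Cfsg.Agent.Lib.Helper74.Wreath Cfsg.Agent.Lib.Helper74.Symp
  Cfsg.Agent.Lib.Helper74.SympBase Cfsg.Agent.Lib.Helper81.SqD Cfsg.Agent.Lib.Helper81.SpSyl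
  Cfsg.Agent.Lib.Helper81.Sl2Base Cfsg.Agent.Lib.Helper81.DeltaGrp

open Matrix

open scoped commutatorElement

universe u

/-- Piece T1. -/
theorem pair_struct {F : Type u} [Field F] [Fintype F] (h2 : (2 : F) ≠ 0) {a : ℕ} (ha : 2 ≤ a)
    (s w : SpecialLinearGroup (Fin 2) F) (hs : orderOf s = 2 ^ a) (hsws : s * w * s = w)
    (hw2 : (w : Matrix (Fin 2) (Fin 2) F) * (w : Matrix (Fin 2) (Fin 2) F) = -1) :
    ∃ T : Subgroup (SpecialLinearGroup (Fin 2) F), IsPGroup 2 T ∧ 2 ^ (a + 1) ∣ Nat.card T ∧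
      SqDer T ∧ s ∈ T ∧ w ∈ T ∧ ∀ t ∈ T, ∃ k : ℤ, t = s ^ k ∨ t = s ^ k * w := by
  classical
  have hfact : Fact (Nat.Prime 2) := ⟨Nat.prime_two⟩
  have ht2 : s ^ 2 ^ (a - 1) * s ^ 2 ^ (a - 1) = 1 := by
    rw [← pow_add, ← two_mul, ← pow_succ', Nat.sub_add_cancel (by omega), ← hs,
      pow_orderOf_eq_one]
  have ht1 : s ^ 2 ^ (a - 1) ≠ 1 := by
    apply pow_ne_one_of_lt_orderOf (by positivity)
    rw [hs]
    exact Nat.pow_lt_pow_right (by norm_num) (by omega)
  have htm := sl2_involution h2 _ ht2 ht1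
  have hww : w * w = s ^ 2 ^ (a - 1) := by
    apply Subtype.ext
    rw [htm]
    exact hw2
  have hconj : w * s * w⁻¹ = s⁻¹ := by
    have h1 : w * s = s⁻¹ * w := by
      rw [eq_inv_mul_iff_mul_eq, ← mul_assoc, hsws]
    rw [h1]
    group
  have hconj' : w⁻¹ * s * w = s⁻¹ := by
    have h1 : s = w⁻¹ * s⁻¹ * w := by
      rw [← hconj]
      group
    have h3 : s⁻¹ = (w⁻¹ * s⁻¹ * w)⁻¹ := by rw [← h1]
    rw [h3]
    group
  have hnorm : Subgroup.zpowers w ≤ Subgroup.normalizer (Subgroup.zpowers s) := by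
    rw [Subgroup.zpowers_le, Subgroup.mem_normalizer_iff]
    intro x
    constructor
    · intro hx
      obtain ⟨m, rfl⟩ := Subgroup.mem_zpowers_iff.1 hx
      have h1 : w * s ^ m * w⁻¹ = (s ^ m)⁻¹ := by
        rw [← conj_zpow, hconj, _root_.inv_zpow]
      rw [h1]
      exact (Subgroup.zpowers s).inv_mem (Subgroup.zpow_mem_zpowers s m)
    · intro hx
      obtain ⟨m, hm⟩ := Subgroup.mem_zpowers_iff.1 hx
      have h1 : x = w⁻¹ * s ^ m * w⁻¹⁻¹ := by
        rw [hm]
        group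
      have h3 : w⁻¹ * s ^ m * w⁻¹⁻¹ = (s ^ m)⁻¹ := by
        rw [← conj_zpow, inv_inv, hconj', _root_.inv_zpow]
      rw [h1, h3]
      exact (Subgroup.zpowers s).inv_mem (Subgroup.zpow_mem_zpowers s m)
  have hs2a : s ^ 2 ^ a = 1 := by
    rw [← hs]
    exact pow_orderOf_eq_one s
  have hw4 : w ^ 2 ^ 2 = 1 := by
    have h1 : w ^ 2 ^ 2 = (w * w) * (w * w) := by
      norm_num [pow_succ, mul_assoc]
    rw [h1, hww, ht2]
  obtain ⟨T, hTdef⟩ : ∃ T : Subgroup (SpecialLinearGroup (Fin 2) F),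
      T = Subgroup.closure {w, s} := ⟨_, rfl⟩
  have hTsup : T = Subgroup.zpowers w ⊔ Subgroup.zpowers s := by
    rw [hTdef, Subgroup.zpowers_eq_closure, Subgroup.zpowers_eq_closure,
      ← Subgroup.closure_union]
    rfl
  have hT : IsPGroup 2 T := by
    rw [hTsup]
    exact IsPGroup.to_sup_of_normal_right' (isPGroup_zpowers_of_pow_eq_one w 2 2 hw4)
      (isPGroup_zpowers_of_pow_eq_one s 2 a hs2a) hnorm
  have hsT : s ∈ T := by
    rw [hTdef]
    exact Subgroup.subset_closure (by simp)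
  have hwT : w ∈ T := by
    rw [hTdef]
    exact Subgroup.subset_closure (by simp)
  have hS2 : (⟨s, hsT⟩ : T) ^ 2 ∈ commutator T := by
    have h1 : (⟨s, hsT⟩ : T) ^ 2 = (⁅(⟨w, hwT⟩ : T), ⟨s, hsT⟩⁆)⁻¹ := by
      apply Subtype.ext
      show s ^ 2 = (w * s * w⁻¹ * s⁻¹)⁻¹
      rw [hconj]
      group
    rw [h1, commutator_def]
    exact Subgroup.inv_mem _
      (Subgroup.commutator_mem_commutator (Subgroup.mem_top _) (Subgroup.mem_top _))
  have hW2 : (⟨w, hwT⟩ : T) ^ 2 ∈ commutator T := by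
    have h1 : (⟨w, hwT⟩ : T) ^ 2 = ((⟨s, hsT⟩ : T) ^ 2) ^ 2 ^ (a - 2) := by
      apply Subtype.ext
      show w ^ 2 = (s ^ 2) ^ 2 ^ (a - 2)
      have h3 : a - 2 + 1 = a - 1 := by omega
      rw [pow_two, hww, ← pow_mul, ← pow_succ', h3]
    rw [h1]
    exact Subgroup.pow_mem _ hS2 _
  have hdvd : 2 ^ (1 * (a + 1) + padicValNat 2 (Nat.factorial 1)) ∣ Nat.card T := by
    obtain ⟨j, hj⟩ := IsPGroup.iff_card.1 hT
    have hle : Subgroup.zpowers s ≤ T := by
      rw [Subgroup.zpowers_le]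
      exact hsT
    have hcs : Nat.card (Subgroup.zpowers s) = 2 ^ a := by
      rw [Nat.card_zpowers, hs]
    have h1 : 2 ^ a ∣ 2 ^ j := by
      rw [← hcs, ← hj]
      exact Subgroup.card_dvd_of_le hle
    have h3 : a ≤ j := (Nat.pow_dvd_pow_iff_le_right (by norm_num)).1 h1
    have h4 : a ≠ j := by
      intro heq
      have h5 : Subgroup.zpowers s = T :=
        Subgroup.eq_of_le_of_card_ge hle (by rw [hcs, hj, heq])
      have h6 : w ∈ Subgroup.zpowers s := by
        rw [h5]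
        exact hwT
      obtain ⟨m, hm⟩ := Subgroup.mem_zpowers_iff.1 h6
      have h7 : w * s = s * w := by
        have h := zpow_mul_comm s m 1
        rw [zpow_one, hm] at h
        exact h
      have h8 : s = s⁻¹ := by
        rw [← hconj, h7]
        group
      have h9 : s ^ 2 = 1 := by
        rw [pow_two]
        nth_rewrite 1 [h8]
        exact inv_mul_cancel s
      have h10 := orderOf_dvd_of_pow_eq_one h9
      rw [hs] at h10
      have h11 := Nat.le_of_dvd (by norm_num) h10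
      have h12 : 2 ^ 2 ≤ 2 ^ a := Nat.pow_le_pow_right (by norm_num) ha
      omega
    rw [hj]
    apply pow_dvd_pow
    simp
    omega
  have hsq : SqDer T := by
    subst hTdef
    apply sqDer_of_closure _ Subgroup.closure_closure_coe_preimage
    rintro ⟨x, hx⟩ hxs
    rcases hxs with h | h
    · have h1 : (⟨x, hx⟩ : Subgroup.closure ({w, s} : Set (SpecialLinearGroup (Fin 2) F))) =
          ⟨w, hwT⟩ := Subtype.ext h
      rw [h1]
      exact hW2
    · have h1 : (⟨x, hx⟩ : Subgroup.closure ({w, s} : Set (SpecialLinearGroup (Fin 2) F))) =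
          ⟨s, hsT⟩ := Subtype.ext h
      rw [h1]
      exact hS2
  have hws : ∀ l : ℤ, w * s ^ l = s ^ (-l) * w := by
    intro l
    have h1 : w * s ^ l * w⁻¹ = s ^ (-l) := by
      rw [← conj_zpow, hconj, _root_.inv_zpow, _root_.zpow_neg]
    rw [← h1]
    group
  have hwinv : w⁻¹ = s ^ ((2 ^ (a - 1) : ℕ) : ℤ) * w := by
    rw [zpow_natCast]
    apply inv_eq_of_mul_eq_one_right
    rw [← hww]
    have h1 : w * (w * w * w) = (w * w) * (w * w) := by group
    rw [h1, hww, ht2]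
  have hstruct : ∀ t ∈ T, ∃ k : ℤ, t = s ^ k ∨ t = s ^ k * w := by
    intro t ht
    rw [hTdef] at ht
    induction ht using Subgroup.closure_induction with
    | mem x hx =>
      rcases hx with h | h
      · exact ⟨0, Or.inr (by rw [h, zpow_zero, one_mul])⟩
      · exact ⟨1, Or.inl (by rw [h, zpow_one])⟩
    | one => exact ⟨0, Or.inl (by rw [zpow_zero])⟩
    | mul x y _ _ hx hy =>
      obtain ⟨k, hk | hk⟩ := hx <;> obtain ⟨l, hl | hl⟩ := hy
      · exact ⟨k + l, Or.inl (by rw [hk, hl, _root_.zpow_add])⟩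
      · exact ⟨k + l, Or.inr (by rw [hk, hl, _root_.zpow_add, mul_assoc])⟩
      · refine ⟨k + -l, Or.inr ?_⟩
        rw [hk, hl, mul_assoc, hws l, ← mul_assoc, ← _root_.zpow_add]
      · refine ⟨k + -l + ((2 ^ (a - 1) : ℕ) : ℤ), Or.inl ?_⟩
        rw [hk, hl]
        calc s ^ k * w * (s ^ l * w) = s ^ k * (w * s ^ l) * w := by group
          _ = s ^ k * (s ^ (-l) * w) * w := by rw [hws l]
          _ = s ^ k * s ^ (-l) * (w * w) := by group
          _ = s ^ (k + -l + ((2 ^ (a - 1) : ℕ) : ℤ)) := by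
              rw [hww, ← zpow_natCast, ← _root_.zpow_add, ← _root_.zpow_add]
    | inv x _ hx =>
      obtain ⟨k, hk | hk⟩ := hx
      · exact ⟨-k, Or.inl (by rw [hk, _root_.zpow_neg])⟩
      · refine ⟨((2 ^ (a - 1) : ℕ) : ℤ) + k, Or.inr ?_⟩
        rw [hk, _root_.mul_inv_rev, hwinv, ← _root_.zpow_neg, mul_assoc, hws (-k), neg_neg, ← mul_assoc,
          ← _root_.zpow_add]
  refine ⟨T, hT, ?_, hsq, hsT, hwT, hstruct⟩
  have h := hdvd
  simp only [one_mul, Nat.factorial_one, padicValNat_one_right, add_zero] at h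
  exact h

end Cfsg.Agent.Lib.Helper1.G2
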