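import Mathlib
import Cfsg.Agent.S0732

/-! S4504 / HP-RECOG sub-piece PERM (helper1): a transitive permutation group of degree `p + 1`
and order `(p+1) p (p-1)/2` is `PSL(2,p)`, or `p = 7` and it has a regular normal subgroup.
(Case analysis of the landed S0732.) -/

set_option autoImplicit false

namespace Cfsg.Agent.Lib.Helper1.HPR

open Cfsg

theorem hprperm_pow (n : ℕ) (hn : 4 ≤ n) : 2 * n + 2 < 2 ^ n := by
  induction n, hn using Nat.le_induction with
  | base => norm_num
  | succ n hn ih => rw [pow_succ]; omega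

/-- the Zassenhaus branch of S0732: no regular normal subgroup -/
theorem hprperm_noreg {α : Type*} [Fintype α] [DecidableEq α] {p d : ℕ} (hp : p.Prime)
    (hα : Fintype.card α = p + 1) (G : Subgroup (Equiv.Perm α)) [MulAction.IsPretransitive G α]
    (hG : Nat.card G = (p + 1) * p * d) (hd : d < p)
    (hreg : ¬ ∃ N : Subgroup G, N.Normal ∧ MulAction.IsPretransitive N α ∧
      ∀ c : α, MulAction.stabilizer N c = ⊥) :
    d = p - 1 ∨ Nonempty (G ≃* Matrix.ProjectiveSpecialLinearGroup (Fin 2) (ZMod p)) := by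
  classical
  have hpf : Fact p.Prime := ⟨hp⟩
  have hp2le := hp.two_le
  obtain ⟨a, b, hab⟩ : ∃ a b : α, a ≠ b :=
    Fintype.exists_pair_of_one_lt_card (by omega)
  obtain ⟨P, hPcard, hPa, hPn, hPcomm, hPreg, hPfix⟩ :=
    Cfsg.Agent.Lib.Helper23.pd_structure hp hα G hG hd a
  have h2t := Cfsg.Agent.Lib.Helper23.pd_two_trans hp hα G hG hd
  have three := Cfsg.Agent.Lib.Helper23.pd_three hp hα G hG hd
  have hdc := Cfsg.Agent.Lib.Helper23.pd_twoStab_card hp hα G hG hd a b hab
  have hd0 : d ≠ 0 := by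
    rintro rfl
    rw [mul_zero] at hG
    exact (Nat.card_pos (α := G)).ne' hG
  have hd1 : d ≠ 1 := by
    intro hd1
    apply hreg
    have hstab : ∀ x y : α, x ≠ y → ∀ g : G, g • x = x → g • y = y → g = 1 := by
      intro x y hxy g hgx hgy
      have hc := Cfsg.Agent.Lib.Helper23.pd_twoStab_card hp hα G hG hd x y hxy
      rw [hd1] at hc
      have hsub : Subsingleton ↥(MulAction.stabilizer G x ⊓ MulAction.stabilizer G y) :=
        (Nat.card_eq_one_iff_unique.mp hc).1
      have h1 := Subsingleton.elim (⟨g, Subgroup.mem_inf.mpr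
        ⟨MulAction.mem_stabilizer_iff.mpr hgx, MulAction.mem_stabilizer_iff.mpr hgy⟩⟩ :
        ↥(MulAction.stabilizer G x ⊓ MulAction.stabilizer G y)) 1
      exact congrArg Subtype.val h1
    have hne : MulAction.stabilizer G a ≠ ⊥ := by
      intro h
      have h1 : Nat.card P ≤ Nat.card (MulAction.stabilizer G a) := Subgroup.card_le_of_le hPa
      rw [h, Subgroup.card_bot, hPcard] at h1
      omega
    exact Cfsg.Agent.Lib.Helper58.S0732P.regular_normal_of_frobenius hstab a b hab hne
  have hZ : IsZassenhausGroup G α := by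
    refine ⟨⟨fun {g₁ g₂} h => Subtype.ext (Equiv.ext h)⟩,
      MulAction.is_two_pretransitive_iff.mpr (fun {x₁ x₂ y₁ y₂} hx hy => h2t x₁ x₂ y₁ y₂ hx hy),
      three, ?_, ?_⟩
    · have h2 : 1 < Nat.card ↥(MulAction.stabilizer G a ⊓ MulAction.stabilizer G b) := by
        rw [hdc]
        omega
      have hnt := Finite.one_lt_card_iff_nontrivial.mp h2
      obtain ⟨g, hg⟩ := exists_ne (1 : ↥(MulAction.stabilizer G a ⊓ MulAction.stabilizer G b))
      exact ⟨g, fun h => hg (Subtype.ext h), a, b, hab,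
        MulAction.mem_stabilizer_iff.mp (Subgroup.mem_inf.mp g.2).1,
        MulAction.mem_stabilizer_iff.mp (Subgroup.mem_inf.mp g.2).2⟩
    · intro N hN hNt
      by_contra hcon
      apply hreg
      refine ⟨N, hN, hNt, fun c => ?_⟩
      by_contra hc
      exact hcon ⟨c, hc⟩
  rcases Cfsg.Agent.Lib.Helper23.zass_prime_degree hZ hp hα a P hPa hPcomm hPreg hab with
    h | ⟨h, ⟨e⟩⟩
  · left
    rw [hdc] at h
    exact h
  · right
    exact ⟨e⟩

/-- SUB-PIECE PERM: a transitive group of degree `p + 1` and order `(p+1) p (p-1)/2` is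
`PSL(2,p)`, or `p = 7` and it has a regular normal subgroup -/
theorem recog_perm {α : Type*} [Fintype α] [DecidableEq α] {p d : ℕ} (hp : p.Prime)
    (hp5 : 5 ≤ p) (hα : Fintype.card α = p + 1) (Γ : Subgroup (Equiv.Perm α))
    [MulAction.IsPretransitive Γ α] (hΓ : Nat.card Γ = (p + 1) * p * d) (h2d : 2 * d + 1 = p) :
    Nonempty (Γ ≃* Matrix.ProjectiveSpecialLinearGroup (Fin 2) (ZMod p)) ∨
    (p = 7 ∧ ∃ N : Subgroup Γ, N.Normal ∧ MulAction.IsPretransitive N α ∧
        ∀ c : α, MulAction.stabilizer N c = ⊥) := by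
  classical
  have hd : d < p := by omega
  by_cases hreg : ∃ N : Subgroup Γ, N.Normal ∧ MulAction.IsPretransitive N α ∧
      ∀ c : α, MulAction.stabilizer N c = ⊥
  · rcases Cfsg.Agent.S0732.result hp hα Γ hΓ hd with ⟨h1, -⟩ | ⟨-, h2⟩ | ⟨q, hq, hpq, hdq, -⟩
    · exfalso
      omega
    · exact Or.inl h2
    · right
      refine ⟨?_, hreg⟩
      rcases hdq with h | h
      · omega
      · subst h
        have h3 : 2 ^ d = 2 * d + 2 := by omega
        have hd3 : d = 3 := by
          by_contra hne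
          have h4 : d ≤ 2 ∨ 4 ≤ d := by omega
          rcases h4 with h' | h'
          · interval_cases d <;> omega
          · have := hprperm_pow d h'
            omega
        omega
  · left
    rcases hprperm_noreg hp hα Γ hΓ hd hreg with h | h
    · exfalso
      omega
    · exact h

end Cfsg.Agent.Lib.Helper1.HPR
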