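import Mathlib
import Cfsg.Agent.Lib.Helper22.HPDefs
import Cfsg.Agent.Lib.Helper83.IrrBasic
import Cfsg.Agent.Lib.Helper31.HPETA
import Cfsg.Agent.Lib.Helper1.HPRNORM
import Cfsg.Agent.Lib.Helper1.HPRPERM
import Cfsg.Agent.Lib.Helper1.HPRP7GRP
import Cfsg.Agent.Lib.Helper2.HPRORDER
import Cfsg.Agent.Lib.Helper82.HPRKER
import Cfsg.Agent.Lib.Helper85.HPRP7CHAR

/-!
# S4504, TOP PIECE RECOG (helper1 for helper22)

`G / Z(G) ≃ PSL(2, p)` from the local data `HP` and the order bound.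
Sub-pieces: NORM, PERM, P7GRP (helper1), ORDER (helper2), KER (helper82),
ABNORM (helper73), P7CHAR (helper85).
-/

set_option autoImplicit false
set_option linter.style.haveILetI false

namespace Cfsg.Agent.Lib.Helper1.HPT

open Cfsg Cfsg.Agent.Lib.Helper22.BFD Cfsg.Agent.Lib.Helper22.HPD
open scoped ComplexConjugate

universe u

/-- TOP PIECE RECOG -/
theorem hp_recog {G : Type u} [Group G] [Fintype G] (p : ℕ) [Fact p.Prime] (hp5 : 5 ≤ p)
    (hdiv : p ∣ Nat.card G) (hsq : ¬ p ^ 2 ∣ Nat.card G)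
    (hnn : ∀ H : Subgroup G, H.Normal → Nat.card H ≠ p)
    (χ : IrrCharacter G) (hfaith : ∀ g : G, χ.1 g = χ.1 1 → g = 1)
    (hdeg : 2 * charDegree χ.1 + 1 = p) (z : G) (ζ : ℂ) (hHP : HP p ζ z χ.1)
    (hord : 2 * Nat.card G ≤ Nat.card (Subgroup.center G) * (p * (p ^ 2 - 1))) :
    Nonempty ((G ⧸ Subgroup.center G) ≃*
      Matrix.ProjectiveSpecialLinearGroup (Fin 2) (ZMod p)) := by
  classical
  have hp : p.Prime := Fact.out
  have hSq : (Sq p).card = charDegree χ.1 := by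
    have h1 := (Cfsg.Agent.Lib.Helper31.HPT.eta_facts p (by omega) ζ hHP.hζ).1
    omega
  have hN := Cfsg.Agent.Lib.Helper1.HPR.recog_norm p hnn z hHP.hz hHP.hE hHP.hC
  rw [hSq] at hN
  obtain ⟨hsyl, hG⟩ :=
    Cfsg.Agent.Lib.Helper2.HPR.recog_order p (charDegree χ.1) hdeg hsq hnn z hHP.hz hN hord
  have hker := Cfsg.Agent.Lib.Helper82.HPR.recog_kernel p hsq hnn z hHP.hz hHP.hC
  haveI : Fintype (Sylow p G) := Fintype.ofFinite _
  have hα : Fintype.card (Sylow p G) = p + 1 := by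
    rw [← Nat.card_eq_fintype_card, hsyl]
  haveI : MulAction.IsPretransitive (MulAction.toPermHom G (Sylow p G)).range (Sylow p G) := by
    refine ⟨fun P Q => ?_⟩
    obtain ⟨g, hg⟩ := MulAction.exists_smul_eq G P Q
    exact ⟨⟨MulAction.toPermHom G (Sylow p G) g, ⟨g, rfl⟩⟩, hg⟩
  have hZpos : 0 < Nat.card (Subgroup.center G) := Nat.card_pos
  have hΓ : Nat.card (MulAction.toPermHom G (Sylow p G)).range =
      (p + 1) * p * charDegree χ.1 := by
    have h1 := (MulAction.toPermHom G (Sylow p G)).ker.card_mul_index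
    rw [Subgroup.index_ker, hker, hG] at h1
    have h2 : Nat.card (Subgroup.center G) *
        Nat.card (MulAction.toPermHom G (Sylow p G)).range =
        Nat.card (Subgroup.center G) * ((p + 1) * p * charDegree χ.1) := by
      rw [h1]; ring
    exact Nat.eq_of_mul_eq_mul_left hZpos h2
  have e1 : G ⧸ Subgroup.center G ≃* (MulAction.toPermHom G (Sylow p G)).range :=
    (QuotientGroup.quotientMulEquivOfEq hker.symm).trans
      (QuotientGroup.quotientKerEquivRange (MulAction.toPermHom G (Sylow p G)))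
  rcases Cfsg.Agent.Lib.Helper1.HPR.recog_perm hp hp5 hα
      (MulAction.toPermHom G (Sylow p G)).range hΓ hdeg with
    ⟨⟨e2⟩⟩ | ⟨h7, N, hNn, hNt, hNr⟩
  · exact ⟨e1.trans e2⟩
  · exfalso
    obtain ⟨L, hZL, hLc, hL2, hLcomm⟩ :=
      Cfsg.Agent.Lib.Helper1.HPR.recog_p7_grp p (by omega) hsq z hHP.hz hker hsyl N hNn hNt hNr
    have hd3 : charDegree χ.1 = 3 := by omega
    exact Cfsg.Agent.Lib.Helper85.HPR.recog_p7_char χ hfaith hd3 L hZL (by rw [hLc, h7]) hL2 hLcomm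

end Cfsg.Agent.Lib.Helper1.HPT
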