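import Mathlib
import Cfsg.Agent.Lib.Helper47.OmcDefs
import Cfsg.Agent.Lib.Helper44.InvOmega

/-!
# OMC piece INDEX2 (for helper47, S2683-S2685)

`|C_O(x)| = 2 |C_Ω(x)|` when `x` fixes a non-singular vector (characteristic two, finite field).
-/

set_option autoImplicit false
set_option linter.unusedSectionVars false
set_option linter.unusedVariables false

namespace Cfsg.Agent.Lib.Helper1.Omc

open Cfsg.Agent.Lib.Helper47 Matrix
open Cfsg.Agent.Lib.Helper44 Cfsg.Agent.Lib.Helper51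

section generic

variable {ι : Type} [Fintype ι] [DecidableEq ι] {F : Type*} [Field F]

theorem refl_congr' (Q : QuadraticForm F (ι → F)) (v w : ι → F) (h : v = w) (hv : Q v ≠ 0)
    (hw : Q w ≠ 0) : refl Q v hv = refl Q w hw := by
  subst h
  rfl

/-- a reflection in a vector fixed by `x` commutes with `x` -/
theorem refl_comm_of_fix (Q : QuadraticForm F (ι → F)) (x : ↥(Cfsg.isometryGroup F ⇑Q))
    (u : ι → F) (hu : Q u ≠ 0)
    (hxu : ((x : Matrix.GeneralLinearGroup ι F) : Matrix ι ι F) *ᵥ u = u) :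
    refl Q u hu * x = x * refl Q u hu := by
  have hv' : Q (((x : Matrix.GeneralLinearGroup ι F) : Matrix ι ι F).mulVec u) ≠ 0 := by
    rw [hxu]; exact hu
  have h1 := conj_refl Q x u hu hv'
  rw [refl_congr' Q _ u hxu hv' hu] at h1
  have h3 : x * refl Q u hu = refl Q u hu * x := by
    calc x * refl Q u hu = (x * refl Q u hu * x⁻¹) * x := by group
      _ = refl Q u hu * x := by rw [h1]
  exact h3.symm

variable [Fintype F] [Nonempty ι]

/-- multiplying by a reflection flips membership in `Ω` -/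
theorem refl_mul_mem_omega_iff (Q : QuadraticForm F (ι → F)) (h2 : (2 : F) = 0)
    (hQ : (QuadraticMap.polarBilin Q).Nondegenerate)
    (h : Fintype.card F ≠ 2 ∨ Fintype.card ι ≠ 4) (u : ι → F) (hu : Q u ≠ 0)
    (g : ↥(Cfsg.isometryGroup F ⇑Q)) :
    refl Q u hu * g ∈ commutator ↥(Cfsg.isometryGroup F ⇑Q) ↔
      g ∉ commutator ↥(Cfsg.isometryGroup F ⇑Q) := by
  rw [mem_commutator_iff_even_rank Q h2 hQ h, mem_commutator_iff_even_rank Q h2 hQ h]
  exact even_rank_flip Q hQ g u hu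

theorem cent_index_two_aux (Q : QuadraticForm F (ι → F)) (q : (ι → F) → F) (hq : ⇑Q = q)
    (h2 : (2 : F) = 0) (hQ : (QuadraticMap.polarBilin Q).Nondegenerate)
    (h : Fintype.card F ≠ 2 ∨ Fintype.card ι ≠ 4)
    (x : ↥(Cfsg.isometryGroup F q)) (u : ι → F) (hu : q u ≠ 0)
    (hxu : ((x : Matrix.GeneralLinearGroup ι F) : Matrix ι ι F) *ᵥ u = u) :
    Nat.card {g : ↥(Cfsg.isometryGroup F q) // g * x = x * g}
      = 2 * Nat.card {g : ↥(Cfsg.Omega F q) //
          (g : ↥(Cfsg.isometryGroup F q)) * x = x * (g : ↥(Cfsg.isometryGroup F q))} := by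
  subst hq
  classical
  set r := refl Q u hu with hr
  have hrr : r * r = 1 := refl_mul_self Q u hu
  have hrx : r * x = x * r := refl_comm_of_fix Q x u hu hxu
  have hflip : ∀ g : ↥(Cfsg.isometryGroup F ⇑Q),
      r * g ∈ commutator ↥(Cfsg.isometryGroup F ⇑Q) ↔
        g ∉ commutator ↥(Cfsg.isometryGroup F ⇑Q) :=
    fun g => refl_mul_mem_omega_iff Q h2 hQ h u hu g
  have hcomm : ∀ g : ↥(Cfsg.isometryGroup F ⇑Q), g * x = x * g → (r * g) * x = x * (r * g) := by
    intro g hg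
    rw [mul_assoc, hg, ← mul_assoc, hrx, mul_assoc]
  -- split the centraliser
  have e0 : Nat.card {g : ↥(Cfsg.isometryGroup F ⇑Q) // g * x = x * g}
      = Nat.card {g : {g : ↥(Cfsg.isometryGroup F ⇑Q) // g * x = x * g} //
          g.1 ∈ commutator ↥(Cfsg.isometryGroup F ⇑Q)}
        + Nat.card {g : {g : ↥(Cfsg.isometryGroup F ⇑Q) // g * x = x * g} //
          ¬ g.1 ∈ commutator ↥(Cfsg.isometryGroup F ⇑Q)} := by
    rw [← Nat.card_sum]
    exact Nat.card_congr (Equiv.sumCompl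
      (fun g : {g : ↥(Cfsg.isometryGroup F ⇑Q) // g * x = x * g} =>
        g.1 ∈ commutator ↥(Cfsg.isometryGroup F ⇑Q))).symm
  have e1 : Nat.card {g : {g : ↥(Cfsg.isometryGroup F ⇑Q) // g * x = x * g} //
          ¬ g.1 ∈ commutator ↥(Cfsg.isometryGroup F ⇑Q)}
      = Nat.card {g : {g : ↥(Cfsg.isometryGroup F ⇑Q) // g * x = x * g} //
          g.1 ∈ commutator ↥(Cfsg.isometryGroup F ⇑Q)} := by
    refine Nat.card_congr
      { toFun := fun g => ⟨⟨r * g.1.1, hcomm g.1.1 g.1.2⟩, (hflip g.1.1).2 g.2⟩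
        invFun := fun g => ⟨⟨r * g.1.1, hcomm g.1.1 g.1.2⟩, fun hmem => ?_⟩
        left_inv := fun g => ?_
        right_inv := fun g => ?_ }
    · have h3 := (hflip (r * g.1.1)).1 (by
        rw [← mul_assoc, hrr, one_mul]; exact g.2)
      exact h3 hmem
    · apply Subtype.ext
      apply Subtype.ext
      show r * (r * g.1.1) = g.1.1
      rw [← mul_assoc, hrr, one_mul]
    · apply Subtype.ext
      apply Subtype.ext
      show r * (r * g.1.1) = g.1.1
      rw [← mul_assoc, hrr, one_mul]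
  have e2 : Nat.card {g : {g : ↥(Cfsg.isometryGroup F ⇑Q) // g * x = x * g} //
          g.1 ∈ commutator ↥(Cfsg.isometryGroup F ⇑Q)}
      = Nat.card {g : ↥(Cfsg.Omega F ⇑Q) //
          (g : ↥(Cfsg.isometryGroup F ⇑Q)) * x = x * (g : ↥(Cfsg.isometryGroup F ⇑Q))} := by
    refine Nat.card_congr
      { toFun := fun g => ⟨⟨g.1.1, g.2⟩, g.1.2⟩
        invFun := fun g => ⟨⟨g.1.1, g.2⟩, g.1.2⟩
        left_inv := fun g => rfl
        right_inv := fun g => rfl }
  rw [e0, e1, e2]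
  ring

end generic

variable {F : Type*} [Field F]

/-- PIECE INDEX2 -/
theorem cent_index_two [Fintype F] [CharP F 2] (m : ℕ) (h : Fintype.card F ≠ 2 ∨ m ≠ 2)
    (x : ↥(Cfsg.isometryGroup F (Cfsg.quadFormPlus m F))) (u : Fin m ⊕ Fin m → F)
    (hu : Cfsg.quadFormPlus m F u ≠ 0) (hxu : omat x *ᵥ u = u) :
    Nat.card {g : ↥(Cfsg.isometryGroup F (Cfsg.quadFormPlus m F)) // g * x = x * g}
      = 2 * Nat.card {g : ↥(Cfsg.Omega F (Cfsg.quadFormPlus m F)) //
          (g : ↥(Cfsg.isometryGroup F (Cfsg.quadFormPlus m F))) * x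
            = x * (g : ↥(Cfsg.isometryGroup F (Cfsg.quadFormPlus m F)))} := by
  have h2 : (2 : F) = 0 := CharTwo.two_eq_zero
  have hm : 1 ≤ m := by
    by_contra hm0
    have hm0' : m = 0 := by omega
    subst hm0'
    apply hu
    simp [Cfsg.quadFormPlus]
  have hne : Nonempty (Fin m ⊕ Fin m) := ⟨Sum.inl ⟨0, hm⟩⟩
  have hcard : Fintype.card (Fin m ⊕ Fin m) = 2 * m := by
    rw [Fintype.card_sum, Fintype.card_fin]; omega
  have h' : Fintype.card F ≠ 2 ∨ Fintype.card (Fin m ⊕ Fin m) ≠ 4 := by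
    rcases h with h | h
    · exact Or.inl h
    · right
      rw [hcard]
      omega
  exact cent_index_two_aux (QPlus m F) _ (coe_QPlus m F) h2 (nondeg_QPlus m F) h' x u hu hxu

end Cfsg.Agent.Lib.Helper1.Omc
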