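import Mathlib
import Cfsg.Agent.Lib.Helper47.OmcDefs
import Cfsg.Agent.Lib.Helper44.InvOmega
import Cfsg.Agent.Lib.Helper51.DicksonTwo
import Cfsg.Agent.Lib.Helper1.OmcINDEX2

/-!
# OMC piece INDEX1 (for helper47, S2683-S2685)

`C_O(x) ≤ Ω` for an alternating involution `x` of rank `m` of `O⁺_{2m}(q)`, `q` even.
-/

set_option autoImplicit false
set_option linter.unusedSectionVars false
set_option linter.unusedVariables false

namespace Cfsg.Agent.Lib.Helper1.Omc

open Cfsg.Agent.Lib.Helper47 Matrix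
open Cfsg.Agent.Lib.Helper44 Cfsg.Agent.Lib.Helper51

section generic

variable {ι : Type} [Fintype ι] [DecidableEq ι] {F : Type*} [Field F] [Fintype F] [Nonempty ι]

theorem cent_index_one_aux (Q : QuadraticForm F (ι → F)) (q : (ι → F) → F) (hq : ⇑Q = q)
    (h2 : (2 : F) = 0) (hQ : (QuadraticMap.polarBilin Q).Nondegenerate)
    (h : Fintype.card F ≠ 2 ∨ Fintype.card ι ≠ 4) (m : ℕ) (hm : Fintype.card ι = 2 * m)
    (x : ↥(Cfsg.isometryGroup F q)) (hx : x ^ 2 = 1)
    (hrank : (((x : Matrix.GeneralLinearGroup ι F) : Matrix ι ι F) - 1).rank = m)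
    (halt : ∀ v, q ((((x : Matrix.GeneralLinearGroup ι F) : Matrix ι ι F) - 1) *ᵥ v) = 0) :
    Nat.card {g : ↥(Cfsg.isometryGroup F q) // g * x = x * g}
      = Nat.card {g : ↥(Cfsg.Omega F q) //
          (g : ↥(Cfsg.isometryGroup F q)) * x = x * (g : ↥(Cfsg.isometryGroup F q))} := by
  subst hq
  have : CharP F 2 := (CharP.charP_iff_prime_eq_zero Nat.prime_two).2 (by exact_mod_cast h2)
  have ht : x * x = 1 := by rw [← sq]; exact hx
  have haltI : IsAltInv Q x := by
    intro v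
    have h1 := halt v
    rw [Matrix.sub_mulVec, Matrix.one_mulVec] at h1
    have e : v + (imat Q x).mulVec v = (imat Q x).mulVec v - v := by
      funext i
      simp only [Pi.add_apply, Pi.sub_apply]
      rw [CharTwo.sub_eq_add, add_comm]
    rw [e]
    exact h1
  have hxO : x ∈ commutator ↥(Cfsg.isometryGroup F ⇑Q) :=
    (mem_omega_iff Q h2 hQ h x).2 (even_rank_of_alt Q h2 hQ x ht haltI)
  obtain ⟨u, hu⟩ := exists_Q_ne_zero Q hQ
  have hns := omega_split_not_conj Q h2 hQ h m hm x ht hxO hrank haltI u hu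
  have hmem : ∀ g : ↥(Cfsg.isometryGroup F ⇑Q), g * x = x * g →
      g ∈ commutator ↥(Cfsg.isometryGroup F ⇑Q) := by
    intro g hg
    by_contra hn
    apply hns
    refine ⟨refl Q u hu * g, (refl_mul_mem_omega_iff Q h2 hQ h u hu g).2 hn, ?_⟩
    have h3 : g * x * g⁻¹ = x := by rw [hg]; group
    calc refl Q u hu * g * x * (refl Q u hu * g)⁻¹
        = refl Q u hu * (g * x * g⁻¹) * (refl Q u hu)⁻¹ := by group
      _ = refl Q u hu * x * (refl Q u hu)⁻¹ := by rw [h3]
  exact Nat.card_congr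
    { toFun := fun g => ⟨⟨g.1, hmem g.1 g.2⟩, g.2⟩
      invFun := fun g => ⟨g.1.1, g.2⟩
      left_inv := fun g => rfl
      right_inv := fun g => rfl }

end generic

variable {F : Type*} [Field F]

/-- PIECE INDEX1 -/
theorem cent_index_one [Fintype F] [CharP F 2] (m : ℕ) (hm : 1 ≤ m)
    (h : Fintype.card F ≠ 2 ∨ m ≠ 2)
    (x : ↥(Cfsg.isometryGroup F (Cfsg.quadFormPlus m F))) (hx : x ^ 2 = 1)
    (hrank : (omat x - 1).rank = m)
    (halt : ∀ v, Cfsg.quadFormPlus m F ((omat x - 1) *ᵥ v) = 0) :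
    Nat.card {g : ↥(Cfsg.isometryGroup F (Cfsg.quadFormPlus m F)) // g * x = x * g}
      = Nat.card {g : ↥(Cfsg.Omega F (Cfsg.quadFormPlus m F)) //
          (g : ↥(Cfsg.isometryGroup F (Cfsg.quadFormPlus m F))) * x
            = x * (g : ↥(Cfsg.isometryGroup F (Cfsg.quadFormPlus m F)))} := by
  have h2 : (2 : F) = 0 := CharTwo.two_eq_zero
  have hne : Nonempty (Fin m ⊕ Fin m) := ⟨Sum.inl ⟨0, hm⟩⟩
  have hcard : Fintype.card (Fin m ⊕ Fin m) = 2 * m := by
    rw [Fintype.card_sum, Fintype.card_fin]; omega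
  have h' : Fintype.card F ≠ 2 ∨ Fintype.card (Fin m ⊕ Fin m) ≠ 4 := by
    rcases h with h | h
    · exact Or.inl h
    · right
      rw [hcard]
      omega
  exact cent_index_one_aux (QPlus m F) _ (coe_QPlus m F) h2 (nondeg_QPlus m F) h' m hcard x hx
    hrank halt

end Cfsg.Agent.Lib.Helper1.Omc
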