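import Mathlib
import Cfsg.Agent.Lib.Helper81.OSum
import Cfsg.Agent.Lib.Helper81.DeltaGrp
import Cfsg.Agent.Lib.Helper51.DicksonTwo
import Cfsg.Agent.Lib.Helper52.OmegaGeom

/-!
# OMEGA-SYL piece WR (helper1, for helper81's S4629–S4631 project)

`wr_step`: the wreath product `T ≀ C₂` acts on the doubled form `osum Q Q` (block-diagonally,
with the non-trivial element of `C₂` exchanging the two summands), and the spinor pair of the
action is `wrDelta`.
-/

set_option autoImplicit false
set_option linter.unusedSectionVars false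

namespace Cfsg.Agent.Lib.Helper1.OmegaWR

open Cfsg Cfsg.Agent.Lib.Helper51 Cfsg.Agent.Lib.Helper81.OSum
open Cfsg.Agent.Lib.Helper81.DeltaGrp RegularWreathProduct

section WR

variable {ι : Type} [Fintype ι] [DecidableEq ι] {F : Type*} [Field F]

local notation "C₂" => Multiplicative (ZMod 2)

/-- the action of `C₂` on the doubled form -/
noncomputable def swapHom (Q : QuadraticForm F (ι → F)) : C₂ →* isometryGroup F ⇑(osum Q Q) where
  toFun q := if q = 1 then 1 else swapIso Q
  map_one' := if_pos rfl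
  map_mul' x y := by
    rcases c2_cases x with rfl | rfl <;> rcases c2_cases y with rfl | rfl
    · simp
    · simp
    · simp
    · rw [c2_sq, if_pos rfl, if_neg c2_ne, swapIso_mul_self]

theorem swapHom_one (Q : QuadraticForm F (ι → F)) : swapHom Q 1 = 1 := map_one _

theorem swapHom_tau (Q : QuadraticForm F (ι → F)) :
    swapHom Q (Multiplicative.ofAdd 1) = swapIso Q := by
  change (if (Multiplicative.ofAdd 1 : C₂) = 1 then (1 : isometryGroup F ⇑(osum Q Q))
    else swapIso Q) = swapIso Q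
  rw [if_neg c2_ne]

theorem blk_mul (Q : QuadraticForm F (ι → F)) (g₁ g₂ h₁ h₂ : isometryGroup F ⇑Q) :
    blk Q Q (g₁ * h₁, g₂ * h₂) = blk Q Q (g₁, g₂) * blk Q Q (h₁, h₂) :=
  map_mul (blk Q Q) (g₁, g₂) (h₁, h₂)

/-- the action of the wreath product on the doubled form, as a function -/
noncomputable def wrFun (Q : QuadraticForm F (ι → F)) {T : Type*} [Group T]
    (ρ : T →* isometryGroup F ⇑Q) (a : T ≀ᵣ C₂) : isometryGroup F ⇑(osum Q Q) :=
  blk Q Q (ρ (a.left 1), ρ (a.left (Multiplicative.ofAdd 1))) * swapHom Q a.right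

theorem wrFun_mul (Q : QuadraticForm F (ι → F)) {T : Type*} [Group T]
    (ρ : T →* isometryGroup F ⇑Q) (a b : T ≀ᵣ C₂) :
    wrFun Q ρ (a * b) = wrFun Q ρ a * wrFun Q ρ b := by
  have hl : ∀ q, (a * b).left q = a.left q * b.left (a.right⁻¹ * q) := fun q => rfl
  have hr : (a * b).right = a.right * b.right := rfl
  unfold wrFun
  rw [hl, hl, hr, map_mul ρ, map_mul ρ, map_mul (swapHom Q), blk_mul]
  rcases c2_cases a.right with h | h
  · rw [h, inv_one, one_mul, one_mul, swapHom_one, mul_one, one_mul, mul_assoc]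
  · have hinv : (Multiplicative.ofAdd 1 : C₂)⁻¹ = Multiplicative.ofAdd 1 := by decide
    rw [h, hinv, mul_one, c2_sq, swapHom_tau, mul_assoc, mul_assoc, ← mul_assoc (swapIso Q),
      swapIso_mul_blk, mul_assoc]

theorem wrFun_one (Q : QuadraticForm F (ι → F)) {T : Type*} [Group T]
    (ρ : T →* isometryGroup F ⇑Q) : wrFun Q ρ (1 : T ≀ᵣ C₂) = 1 := by
  unfold wrFun
  rw [RegularWreathProduct.one_left, RegularWreathProduct.one_right, swapHom_one, mul_one]
  simp only [Pi.one_apply, map_one]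
  exact map_one (blk Q Q)

/-- the action of the wreath product on the doubled form -/
noncomputable def wrHom (Q : QuadraticForm F (ι → F)) {T : Type*} [Group T]
    (ρ : T →* isometryGroup F ⇑Q) : T ≀ᵣ C₂ →* isometryGroup F ⇑(osum Q Q) where
  toFun := wrFun Q ρ
  map_one' := wrFun_one Q ρ
  map_mul' := wrFun_mul Q ρ

theorem wrHom_apply (Q : QuadraticForm F (ι → F)) {T : Type*} [Group T]
    (ρ : T →* isometryGroup F ⇑Q) (a : T ≀ᵣ C₂) :
    wrHom Q ρ a = blk Q Q (ρ (a.left 1), ρ (a.left (Multiplicative.ofAdd 1))) *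
      swapHom Q a.right := rfl

theorem blk_mul_swap_ne_one [Nonempty ι] (Q : QuadraticForm F (ι → F))
    (g : isometryGroup F ⇑Q × isometryGroup F ⇑Q) : blk Q Q g * swapIso Q ≠ 1 := by
  intro h
  have h1 := congrArg (fun g : isometryGroup F ⇑(osum Q Q) =>
    ((g : Matrix.GeneralLinearGroup (ι ⊕ ι) F) : Matrix (ι ⊕ ι) (ι ⊕ ι) F)) h
  simp only [coe_mul', coe_blk, coe_swapIso] at h1
  unfold swapM at h1
  rw [Matrix.fromBlocks_multiply] at h1
  simp only [Matrix.mul_zero, add_zero, zero_add, Matrix.mul_one] at h1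
  have h2 : (((1 : isometryGroup F ⇑(osum Q Q)) : Matrix.GeneralLinearGroup (ι ⊕ ι) F) :
      Matrix (ι ⊕ ι) (ι ⊕ ι) F) = Matrix.fromBlocks 1 0 0 1 := Matrix.fromBlocks_one.symm
  rw [h2] at h1
  obtain ⟨h3, -, -, -⟩ := Matrix.fromBlocks_inj.1 h1
  obtain ⟨i⟩ := ‹Nonempty ι›
  have h4 := congrFun (congrFun h3 i) i
  rw [Matrix.zero_apply, Matrix.one_apply_eq] at h4
  exact zero_ne_one h4

variable [Fintype F]

theorem wr_step [Nonempty ι] (δ₀ : F) (Q : QuadraticForm F (ι → F)) {T : Type*} [Group T]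
    (ρ : T →* isometryGroup F ⇑Q) (hinj : Function.Injective ρ)
    (hblk : ∀ g₁ g₂ : isometryGroup F ⇑Q,
      spinPair (osum Q Q) δ₀ (blk Q Q (g₁, g₂)) = spinPair Q δ₀ g₁ * spinPair Q δ₀ g₂)
    (hswap : spinPair (osum Q Q) δ₀ (swapIso Q) = 1) :
    ∃ ρ' : T ≀ᵣ Multiplicative (ZMod 2) →* isometryGroup F ⇑(osum Q Q),
      Function.Injective ρ' ∧
      ∀ a, spinPair (osum Q Q) δ₀ (ρ' a)
        = wrDelta ((spinPair Q δ₀).comp ρ) (Multiplicative (ZMod 2)) a := by
  refine ⟨wrHom Q ρ, ?_, ?_⟩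
  · rw [injective_iff_map_eq_one]
    intro a ha
    rw [wrHom_apply] at ha
    rcases c2_cases a.right with h | h
    · rw [h, swapHom_one, mul_one] at ha
      have h1 : blk Q Q (ρ (a.left 1), ρ (a.left (Multiplicative.ofAdd 1))) = blk Q Q (1, 1) := by
        rw [ha]
        exact (map_one (blk Q Q)).symm
      have h2 := blk_injective Q Q h1
      have h3 : a.left 1 = 1 := hinj ((Prod.ext_iff.1 h2).1.trans (map_one ρ).symm)
      have h4 : a.left (Multiplicative.ofAdd 1) = 1 :=
        hinj ((Prod.ext_iff.1 h2).2.trans (map_one ρ).symm)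
      apply RegularWreathProduct.ext
      · funext q
        rcases c2_cases q with rfl | rfl
        · rw [h3]; rfl
        · rw [h4]; rfl
      · rw [h]; rfl
    · rw [h, swapHom_tau] at ha
      exact absurd ha (blk_mul_swap_ne_one Q _)
  · intro a
    rw [wrHom_apply, map_mul, hblk, wrDelta_two]
    have h1 : spinPair (osum Q Q) δ₀ (swapHom Q a.right) = 1 := by
      rcases c2_cases a.right with h | h
      · rw [h, swapHom_one, map_one]
      · rw [h, swapHom_tau, hswap]
    rw [h1, mul_one]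
    rfl

end WR

end Cfsg.Agent.Lib.Helper1.OmegaWR
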