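import Mathlib
import Cfsg.Agent.Lib.Helper49.Sp4Base

set_option autoImplicit false
set_option linter.style.haveILetI false
set_option linter.unusedSectionVars false
set_option linter.unusedVariables false

/-!
S2460, pieces BLOCK / INVM (for helper49): the matrix of `k⁻¹ G k` from the action of `G` on the
columns of `k`.
-/

namespace Cfsg.Agent.Lib.Helper1.Sp4T

open Matrix
open Cfsg.Agent.Lib.Helper49.Sp4T

variable {F : Type*} [Field F]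

theorem sp4_inv_mul_coe (k : Sp4 F) : ((k⁻¹ : Sp4 F) : M4 F) * (k : M4 F) = 1 := by
  have := congrArg (fun z : Sp4 F => (z : M4 F)) (inv_mul_cancel k)
  exact this

theorem sp4_conj_coe (G k : Sp4 F) :
    ((k⁻¹ * G * k : Sp4 F) : M4 F) = ((k⁻¹ : Sp4 F) : M4 F) * (G : M4 F) * (k : M4 F) := rfl

/-- the `j`-th column of `k⁻¹ G k` when `G (k e_j) = ε (k e_j) + α (k e_a) + β (k e_b)` -/
theorem conj_col (G k : Sp4 F) (ε α β : F) (j a b : Fin 2 ⊕ Fin 2)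
    (hG : (G : M4 F) *ᵥ ((k : M4 F) *ᵥ Pi.single j 1) =
      ε • ((k : M4 F) *ᵥ Pi.single j 1) + α • ((k : M4 F) *ᵥ Pi.single a 1)
        + β • ((k : M4 F) *ᵥ Pi.single b 1)) (i : Fin 2 ⊕ Fin 2) :
    ((k⁻¹ * G * k : Sp4 F) : M4 F) i j =
      (ε • (Pi.single j 1 : V4 F) + α • (Pi.single a 1 : V4 F) + β • (Pi.single b 1 : V4 F)) i := by
  have h : ((k⁻¹ * G * k : Sp4 F) : M4 F) *ᵥ Pi.single j 1 =
      ε • (Pi.single j 1 : V4 F) + α • (Pi.single a 1 : V4 F) + β • (Pi.single b 1 : V4 F) := by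
    rw [sp4_conj_coe, ← Matrix.mulVec_mulVec, ← Matrix.mulVec_mulVec, hG]
    simp only [Matrix.mulVec_add, Matrix.mulVec_smul, Matrix.mulVec_mulVec, sp4_inv_mul_coe,
      Matrix.one_mulVec]
  rw [← h, Matrix.mulVec_single_one]
  rfl

/-- PIECE BLOCK -/
theorem block_of_cols (G k : Sp4 F) (ε : F) (v1 v2 w1 w2 : V4 F)
    (hk1 : (k : M4 F) *ᵥ Pi.single (Sum.inl 0) 1 = v1)
    (hk2 : (k : M4 F) *ᵥ Pi.single (Sum.inl 1) 1 = v2)
    (hk3 : (k : M4 F) *ᵥ Pi.single (Sum.inr 0) 1 = w1)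
    (hk4 : (k : M4 F) *ᵥ Pi.single (Sum.inr 1) 1 = w2)
    (h1 : (G : M4 F) *ᵥ v1 - ε • v1 ∈ Submodule.span F {w1, w2})
    (h2 : (G : M4 F) *ᵥ v2 - ε • v2 ∈ Submodule.span F {w1, w2}) :
    ((k⁻¹ * G * k : Sp4 F) : M4 F).toBlocks₁₁ = ε • (1 : M2 F) := by
  obtain ⟨α1, β1, e1⟩ := Submodule.mem_span_pair.mp h1
  obtain ⟨α2, β2, e2⟩ := Submodule.mem_span_pair.mp h2
  have c1 := conj_col G k ε α1 β1 (Sum.inl 0) (Sum.inr 0) (Sum.inr 1) (by
    rw [hk1, hk3, hk4, add_assoc, e1]; abel)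
  have c2 := conj_col G k ε α2 β2 (Sum.inl 1) (Sum.inr 0) (Sum.inr 1) (by
    rw [hk2, hk3, hk4, add_assoc, e2]; abel)
  ext i j
  rw [Matrix.toBlocks₁₁, Matrix.of_apply]
  fin_cases j
  · simp only [Fin.zero_eta]
    rw [c1]
    fin_cases i <;> simp
  · simp only [Fin.mk_one]
    rw [c2]
    fin_cases i <;> simp

/-- PIECE INVM -/
theorem invol_of_cols (G k : Sp4 F) (e1 e2 f1 f2 : V4 F)
    (hk1 : (k : M4 F) *ᵥ Pi.single (Sum.inl 0) 1 = e1)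
    (hk2 : (k : M4 F) *ᵥ Pi.single (Sum.inl 1) 1 = e2)
    (hk3 : (k : M4 F) *ᵥ Pi.single (Sum.inr 0) 1 = f1)
    (hk4 : (k : M4 F) *ᵥ Pi.single (Sum.inr 1) 1 = f2)
    (h1 : (G : M4 F) *ᵥ e1 = -e1) (h2 : (G : M4 F) *ᵥ f1 = -f1)
    (h3 : (G : M4 F) *ᵥ e2 = e2) (h4 : (G : M4 F) *ᵥ f2 = f2) :
    ((k⁻¹ * G * k : Sp4 F) : M4 F) = tMat F := by
  have c1 := conj_col G k (-1) 0 0 (Sum.inl 0) (Sum.inl 0) (Sum.inl 0) (by
    rw [hk1, h1]; simp)
  have c2 := conj_col G k 1 0 0 (Sum.inl 1) (Sum.inl 0) (Sum.inl 0) (by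
    rw [hk2, h3]; simp)
  have c3 := conj_col G k (-1) 0 0 (Sum.inr 0) (Sum.inl 0) (Sum.inl 0) (by
    rw [hk3, h2]; simp)
  have c4 := conj_col G k 1 0 0 (Sum.inr 1) (Sum.inl 0) (Sum.inl 0) (by
    rw [hk4, h4]; simp)
  ext i j
  rcases j with j | j <;> fin_cases j
  · simp only [Fin.zero_eta]
    rw [c1]
    rcases i with i | i <;> fin_cases i <;> simp [tMat, Matrix.fromBlocks, Matrix.diagonal]
  · simp only [Fin.mk_one]
    rw [c2]
    rcases i with i | i <;> fin_cases i <;> simp [tMat, Matrix.fromBlocks, Matrix.diagonal]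
  · simp only [Fin.zero_eta]
    rw [c3]
    rcases i with i | i <;> fin_cases i <;> simp [tMat, Matrix.fromBlocks, Matrix.diagonal]
  · simp only [Fin.mk_one]
    rw [c4]
    rcases i with i | i <;> fin_cases i <;> simp [tMat, Matrix.fromBlocks, Matrix.diagonal]

end Cfsg.Agent.Lib.Helper1.Sp4T
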