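import Mathlib
import Cfsg.Agent.Lib.Helper49.Sp4Base

set_option autoImplicit false
set_option linter.style.haveILetI false
set_option linter.unusedSectionVars false
set_option linter.unusedVariables false

/-!
S2460, piece CONJX (for helper49): a lower block-triangular element of `Sp4` whose Levi block is
similar to a "good" `A0` is `Sp4`-conjugate to `sMat A0` (Sylvester equation on symmetric matrices).
-/

namespace Cfsg.Agent.Lib.Helper1.Sp4T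

open Matrix
open Cfsg.Agent.Lib.Helper49.Sp4T

variable {F : Type*} [Field F]

/-- symmetric `2 × 2` matrices -/
def symSub (F : Type*) [Field F] : Submodule F (M2 F) where
  carrier := {W | Wᵀ = W}
  add_mem' := by
    intro a b ha hb
    simp only [Set.mem_ofPred_eq] at *
    rw [Matrix.transpose_add, ha, hb]
  zero_mem' := by simp
  smul_mem' := by
    intro c a ha
    simp only [Set.mem_ofPred_eq] at *
    rw [Matrix.transpose_smul, ha]

/-- Sylvester: `W ↦ Pᵀ W P - W` is onto the symmetric matrices as soon as it is injective on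
them. -/
theorem sylvester_surj (P : M2 F) (hP : ∀ W : M2 F, Wᵀ = W → Pᵀ * W * P = W → W = 0)
    (Y : M2 F) (hY : Yᵀ = Y) : ∃ W : M2 F, Wᵀ = W ∧ Pᵀ * W * P - W = Y := by
  let φ : symSub F →ₗ[F] symSub F :=
    { toFun := fun W => ⟨Pᵀ * W.1 * P - W.1, by
        show (Pᵀ * W.1 * P - W.1)ᵀ = Pᵀ * W.1 * P - W.1
        have hW : (W.1)ᵀ = W.1 := W.2
        rw [Matrix.transpose_sub, Matrix.transpose_mul, Matrix.transpose_mul,
          Matrix.transpose_transpose, hW, Matrix.mul_assoc]⟩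
      map_add' := by
        intro a b
        apply Subtype.ext
        simp only [Submodule.coe_add, Matrix.mul_add, Matrix.add_mul]
        abel
      map_smul' := by
        intro c a
        apply Subtype.ext
        simp only [Submodule.coe_smul, Matrix.mul_smul, Matrix.smul_mul, RingHom.id_apply,
          smul_sub] }
  have hinj : Function.Injective φ := by
    rw [← LinearMap.ker_eq_bot, LinearMap.ker_eq_bot']
    intro W hW
    have h1 : Pᵀ * W.1 * P - W.1 = 0 := congrArg Subtype.val hW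
    apply Subtype.ext
    exact hP W.1 W.2 (sub_eq_zero.mp h1)
  have hsurj : Function.Surjective φ := LinearMap.injective_iff_surjective.mp hinj
  obtain ⟨W, hW⟩ := hsurj ⟨Y, hY⟩
  exact ⟨W.1, W.2, congrArg Subtype.val hW⟩

/-- PIECE CONJX -/
theorem conj_lower (A0 : M2 F) (hA : Good A0) (x0 : Sp4 F) (hx0 : (x0 : M4 F) = sMat A0)
    (A B C : M2 F) (hB : IsUnit B.det) (hBA : B * A = A0 * B)
    (x : Sp4 F) (hx : (x : M4 F) = Matrix.fromBlocks A 0 C (A⁻¹)ᵀ) :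
    ∃ u : Sp4 F, x = u * x0 * u⁻¹ := by
  obtain ⟨hA0, hS1, hS2, -⟩ := hA
  have hBi1 : B * B⁻¹ = 1 := Matrix.mul_nonsing_inv B hB
  have hBi2 : B⁻¹ * B = 1 := Matrix.nonsing_inv_mul B hB
  have hA0i1 : A0 * A0⁻¹ = 1 := Matrix.mul_nonsing_inv A0 hA0
  have hA0i2 : A0⁻¹ * A0 = 1 := Matrix.nonsing_inv_mul A0 hA0
  have hxm : Matrix.fromBlocks A 0 C (A⁻¹)ᵀ ∈ Matrix.symplecticGroup (Fin 2) F := hx ▸ x.2
  obtain ⟨hsymAC, -, hAA⟩ := SymplecticGroup.fromBlocks_mem_iff.mp hxm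
  -- `Bi A0 = A Bi`
  have hBiA0 : B⁻¹ * A0 = A * B⁻¹ := by
    calc B⁻¹ * A0 = B⁻¹ * (A0 * B) * B⁻¹ := by
          rw [Matrix.mul_assoc, Matrix.mul_assoc, hBi1, Matrix.mul_one]
      _ = B⁻¹ * (B * A) * B⁻¹ := by rw [hBA]
      _ = A * B⁻¹ := by rw [← Matrix.mul_assoc, hBi2, Matrix.one_mul]
  -- the right-hand side of the Sylvester equation is symmetric
  have hY : (A0ᵀ * ((B⁻¹)ᵀ * C * B⁻¹))ᵀ = A0ᵀ * ((B⁻¹)ᵀ * C * B⁻¹) := by
    have e1 : A0ᵀ * ((B⁻¹)ᵀ * C * B⁻¹) = (B⁻¹)ᵀ * (Aᵀ * C) * B⁻¹ := by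
      have : A0ᵀ * (B⁻¹)ᵀ = (B⁻¹)ᵀ * Aᵀ := by
        rw [← Matrix.transpose_mul, ← Matrix.transpose_mul, hBiA0]
      simp only [← Matrix.mul_assoc]
      rw [this]
    have e2 : (A0ᵀ * ((B⁻¹)ᵀ * C * B⁻¹))ᵀ = (B⁻¹)ᵀ * (Cᵀ * A) * B⁻¹ := by
      simp only [Matrix.transpose_mul, Matrix.transpose_transpose, Matrix.mul_assoc]
      rw [hBiA0]
    rw [e2, e1, hsymAC]
  obtain ⟨W, hWs, hW⟩ := sylvester_surj A0 hS1 _ hY
  -- the conjugating element
  have hvm : Matrix.fromBlocks B 0 (-(W * B)) (B⁻¹)ᵀ ∈ Matrix.symplecticGroup (Fin 2) F := by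
    rw [SymplecticGroup.fromBlocks_mem_iff]
    refine ⟨?_, ?_, ?_⟩
    · rw [Matrix.transpose_neg, Matrix.transpose_mul, hWs, Matrix.mul_neg, Matrix.neg_mul,
        Matrix.mul_assoc]
    · simp
    · rw [Matrix.mul_zero, sub_zero, ← Matrix.transpose_mul, hBi2, Matrix.transpose_one]
  have hPQ : (A0⁻¹)ᵀ * A0ᵀ = 1 := by
    rw [← Matrix.transpose_mul, hA0i1, Matrix.transpose_one]
  have h4 : (B⁻¹)ᵀ * (A⁻¹)ᵀ = (A0⁻¹)ᵀ * (B⁻¹)ᵀ := by
    rw [← Matrix.transpose_mul, ← Matrix.transpose_mul, ← Matrix.mul_inv_rev,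
      ← Matrix.mul_inv_rev, hBA]
  have h3 : -(W * B) * A + (B⁻¹)ᵀ * C = (A0⁻¹)ᵀ * (-(W * B)) := by
    have e1 : (B⁻¹)ᵀ * C = (A0⁻¹)ᵀ * (A0ᵀ * ((B⁻¹)ᵀ * C * B⁻¹)) * B := by
      rw [← Matrix.mul_assoc (A0⁻¹)ᵀ, hPQ, Matrix.one_mul, Matrix.mul_assoc _ B⁻¹ B, hBi2,
        Matrix.mul_one]
    have e2 : (A0⁻¹)ᵀ * (A0ᵀ * W * A0 - W) * B = W * (B * A) - (A0⁻¹)ᵀ * W * B := by
      rw [Matrix.mul_sub, Matrix.sub_mul, hBA]
      congr 1
      rw [← Matrix.mul_assoc, ← Matrix.mul_assoc, hPQ, Matrix.one_mul, Matrix.mul_assoc]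
    rw [e1, ← hW, e2]
    simp only [Matrix.neg_mul, Matrix.mul_neg, Matrix.mul_assoc]
    abel
  let V : Sp4 F := ⟨Matrix.fromBlocks B 0 (-(W * B)) (B⁻¹)ᵀ, hvm⟩
  have hVx : V * x = x0 * V := by
    apply Subtype.ext
    show (Matrix.fromBlocks B 0 (-(W * B)) (B⁻¹)ᵀ : M4 F) * (x : M4 F)
      = (x0 : M4 F) * Matrix.fromBlocks B 0 (-(W * B)) (B⁻¹)ᵀ
    rw [hx, hx0, sMat, Matrix.fromBlocks_multiply, Matrix.fromBlocks_multiply]
    simp only [Matrix.mul_zero, Matrix.zero_mul, add_zero, zero_add]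
    rw [hBA, h3, h4]
  refine ⟨V⁻¹, ?_⟩
  rw [inv_inv, mul_assoc, ← hVx, inv_mul_cancel_left]

end Cfsg.Agent.Lib.Helper1.Sp4T
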